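import Cfsg.Agent.Lib.Helper80.LBM.Base

set_option autoImplicit false

/-! # S2733 farm (helper80), pieces [EL] [ES1] (helper63) -/

namespace Cfsg.Agent.Lib.Helper63.LBM

open Matrix QuadraticMap Module Cfsg.Agent.Lib.Helper13.OOut Cfsg.Agent.Lib.Helper43.PA
  Cfsg.Agent.Lib.Helper43.PO Cfsg.Agent.Lib.Helper44 Cfsg.Agent.Lib.Helper80.LBM

universe u

variable {F : Type u} [Field F] {ι : Type} [Fintype ι] [DecidableEq ι]

/-- [EL] the `(E - 1) ^ 2` trick: an additive map commuting with an Eichler transformation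
`E_{u,v}`, `Q v ≠ 0`, stabilises the line of `u`. -/
theorem eichler_line {E V : Type*} [Field E] [AddCommGroup V] [Module E V] (h2 : (2 : E) ≠ 0)
    (q : QuadraticForm E V) (u v : V) (hu : q u = 0) (huv : polar q u v = 0) (hv : q v ≠ 0)
    (hw : ∃ w, polar q u w ≠ 0) (f : V →+ V)
    (hf : ∀ w, f (eichler q u v hu huv w) = eichler q u v hu huv (f w)) :
    ∃ c : E, f u = c • u := by
  obtain ⟨w0, hw0⟩ := hw
  have huu : polar q u u = 0 := by rw [polar_self, hu]; simp
  have hvu : polar q v u = 0 := by rw [polar_comm]; exact huv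
  have hvv : polar q v v = 2 * q v := by rw [polar_self]; simp
  have hN2 : ∀ x, eichler q u v hu huv (eichler q u v hu huv x - x)
      - (eichler q u v hu huv x - x) = (-(2 * q v * polar q u x)) • u := by
    intro x
    have e1 : eichler q u v hu huv x - x
        = (polar q v x - q v * polar q u x) • u + (-polar q u x) • v := by
      rw [eichler_apply]; module
    rw [e1, eichler_apply]
    simp only [polar_add_right, polar_smul_right, huu, hvu, huv, hvv, smul_eq_mul, mul_zero,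
      add_zero, zero_add, zero_smul, sub_zero]
    module
  have hfN : ∀ w, f (eichler q u v hu huv w - w) = eichler q u v hu huv (f w) - f w := by
    intro w
    rw [map_sub, hf]
  set c0 : E := -(2 * q v * polar q u w0) with hc0
  have hc0ne : c0 ≠ 0 := neg_ne_zero.2 (mul_ne_zero (mul_ne_zero h2 hv) hw0)
  have hux : u = eichler q u v hu huv (eichler q u v hu huv (c0⁻¹ • w0) - c0⁻¹ • w0)
      - (eichler q u v hu huv (c0⁻¹ • w0) - c0⁻¹ • w0) := by
    rw [hN2, polar_smul_right, smul_eq_mul]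
    have : -(2 * q v * (c0⁻¹ * polar q u w0)) = c0⁻¹ * c0 := by rw [hc0]; ring
    rw [this, inv_mul_cancel₀ hc0ne, one_smul]
  refine ⟨-(2 * q v * polar q u (f (c0⁻¹ • w0))), ?_⟩
  rw [← hN2, ← hfN, ← hfN, ← hux]

/-- [ES1] -/
theorem eig_orth (h2 : (2 : F) ≠ 0) (Q : QuadraticForm F (ι → F)) (g : Matrix ι ι F)
    (hg : ∀ v, Q (g *ᵥ v) = Q v) (u w : ι → F) (hu : g *ᵥ u = u) (hw : g *ᵥ w = -w) :
    polar Q u w = 0 := by
  have h1 : polar Q (g *ᵥ u) (g *ᵥ w) = polar Q u w := by
    unfold polar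
    rw [← Matrix.mulVec_add, hg, hg, hg]
  rw [hu, hw, polar_neg_right] at h1
  have h3 : 2 * polar Q u w = 0 := by linear_combination -h1
  rcases mul_eq_zero.1 h3 with h | h
  · exact absurd h h2
  · exact h

/-- [ES1] -/
theorem eig_decomp (h2 : (2 : F) ≠ 0) (g : Matrix ι ι F) (hgg : g * g = 1) (w : ι → F) :
    ∃ a b : ι → F, g *ᵥ a = a ∧ g *ᵥ b = -b ∧ w = a + b := by
  have hggw : g *ᵥ (g *ᵥ w) = w := by rw [Matrix.mulVec_mulVec, hgg, Matrix.one_mulVec]
  refine ⟨(2⁻¹ : F) • (w + g *ᵥ w), (2⁻¹ : F) • (w - g *ᵥ w), ?_, ?_, ?_⟩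
  · rw [Matrix.mulVec_smul, Matrix.mulVec_add, hggw, add_comm]
  · rw [Matrix.mulVec_smul, Matrix.mulVec_sub, hggw, ← smul_neg, neg_sub]
  · have : (2⁻¹ : F) • (w + g *ᵥ w) + (2⁻¹ : F) • (w - g *ᵥ w) = ((2⁻¹ : F) * 2) • w := by module
    rw [this, inv_mul_cancel₀ h2, one_smul]

/-- [ES1] -/
theorem eig_nondeg (h2 : (2 : F) ≠ 0) (Q : QuadraticForm F (ι → F))
    (hQ : (polarBilin Q).Nondegenerate) (g : Matrix ι ι F) (hg : ∀ v, Q (g *ᵥ v) = Q v)
    (hgg : g * g = 1) (e : F) (he : e = 1 ∨ e = -1) :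
    (polarBilin (Q.comp (End.eigenspace (Matrix.mulVecLin g) e).subtype)).Nondegenerate := by
  have hpol : ∀ x y : End.eigenspace (Matrix.mulVecLin g) e,
      polarBilin (Q.comp (End.eigenspace (Matrix.mulVecLin g) e).subtype) x y
        = polar Q (x : ι → F) (y : ι → F) := by
    intro x y
    simp [polar]
  have key : ∀ x : End.eigenspace (Matrix.mulVecLin g) e,
      (∀ y : End.eigenspace (Matrix.mulVecLin g) e, polar Q (x : ι → F) (y : ι → F) = 0) →
      x = 0 := by
    intro x hx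
    have hxe : g *ᵥ (x : ι → F) = e • (x : ι → F) := End.mem_eigenspace_iff.1 x.2
    apply Subtype.ext
    apply hQ.1
    intro w
    show polar Q (x : ι → F) w = 0
    obtain ⟨a, b, ha, hb, rfl⟩ := eig_decomp h2 g hgg w
    rw [polar_add_right]
    rcases he with rfl | rfl
    · rw [one_smul] at hxe
      have h3 := hx ⟨a, End.mem_eigenspace_iff.2 (by rw [one_smul]; exact ha)⟩
      rw [h3, eig_orth h2 Q g hg _ _ hxe hb, add_zero]
    · rw [neg_one_smul] at hxe
      have h3 := hx ⟨b, End.mem_eigenspace_iff.2 (by rw [neg_one_smul]; exact hb)⟩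
      rw [h3, polar_comm, eig_orth h2 Q g hg _ _ ha hxe, add_zero]
  constructor
  · intro x hx
    exact key x (fun y => by rw [← hpol]; exact hx y)
  · intro y hy
    exact key y (fun x => by rw [polar_comm, ← hpol]; exact hy x)

end Cfsg.Agent.Lib.Helper63.LBM
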