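import Cfsg.Agent.Lib.Helper63.LBMEL

set_option autoImplicit false

/-! # S2733 farm (helper80), pieces [ES2] and `det_g0` of [K1b] (helper63) -/

namespace Cfsg.Agent.Lib.Helper63.LBM

open Matrix QuadraticMap Module Cfsg.Agent.Lib.Helper13.OOut Cfsg.Agent.Lib.Helper43.PA
  Cfsg.Agent.Lib.Helper43.PO Cfsg.Agent.Lib.Helper44 Cfsg.Agent.Lib.Helper80.LBM

universe u

variable {F : Type u} [Field F] {ι : Type} [Fintype ι] [DecidableEq ι]

/-- [K1b] -/
theorem det_g0 (μ : F) (d : ℕ) : (g0 μ d).det = (-μ) ^ d := by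
  have h1 : g0 μ d * fromBlocks (1 : Matrix (Fin d) (Fin d) F) 1 0 1
      = fromBlocks 0 (μ • 1) 1 1 := by
    unfold g0
    rw [fromBlocks_multiply]
    simp
  have h2 : (fromBlocks (1 : Matrix (Fin d) (Fin d) F) (1 : Matrix (Fin d) (Fin d) F) 0 1).det
      = 1 := by
    rw [det_fromBlocks_zero₂₁]; simp
  have h3 := congrArg Matrix.det h1
  rw [det_mul, h2, mul_one, det_fromBlocks_one₂₂] at h3
  rw [h3]
  have : (0 : Matrix (Fin d) (Fin d) F) - μ • (1 : Matrix (Fin d) (Fin d) F) * 1
      = (-μ) • (1 : Matrix (Fin d) (Fin d) F) := by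
    rw [mul_one, zero_sub, neg_smul]
  rw [this, det_smul, det_one, mul_one, Fintype.card_fin]

theorem eig_isCompl (h2 : (2 : F) ≠ 0) (g : Matrix ι ι F) (hgg : g * g = 1) :
    IsCompl (End.eigenspace (Matrix.mulVecLin g) 1) (End.eigenspace (Matrix.mulVecLin g) (-1)) := by
  constructor
  · rw [Submodule.disjoint_def]
    intro x h1 h3
    have e1 : g *ᵥ x = (1 : F) • x := End.mem_eigenspace_iff.1 h1
    have e2 : g *ᵥ x = (-1 : F) • x := End.mem_eigenspace_iff.1 h3
    have e3 : (2 : F) • x = 0 := by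
      have : (1 : F) • x = (-1 : F) • x := e1.symm.trans e2
      calc (2 : F) • x = (1 : F) • x - (-1 : F) • x := by module
        _ = 0 := by rw [this, sub_self]
    exact (smul_eq_zero.1 e3).resolve_left h2
  · rw [codisjoint_iff, eq_top_iff]
    intro w _
    obtain ⟨a, b, ha, hb, rfl⟩ := eig_decomp h2 g hgg w
    exact Submodule.add_mem_sup (End.mem_eigenspace_iff.2 (by rw [one_smul]; exact ha))
      (End.mem_eigenspace_iff.2 (by rw [neg_one_smul]; exact hb))

/-- [ES2] -/
theorem eig_odd (h2 : (2 : F) ≠ 0) (g : Matrix ι ι F) (hgg : g * g = 1) (hdet : g.det = -1)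
    (hev : Even (Fintype.card ι)) :
    Odd (finrank F (End.eigenspace (Matrix.mulVecLin g) 1)) ∧
      Odd (finrank F (End.eigenspace (Matrix.mulVecLin g) (-1))) ∧
      finrank F (End.eigenspace (Matrix.mulVecLin g) 1)
        + finrank F (End.eigenspace (Matrix.mulVecLin g) (-1)) = Fintype.card ι := by
  set W := End.eigenspace (Matrix.mulVecLin g) 1 with hW
  have hsum : finrank F W + finrank F (End.eigenspace (Matrix.mulVecLin g) (-1))
      = Fintype.card ι := by
    rw [Submodule.finrank_add_eq_of_isCompl (eig_isCompl h2 g hgg), Module.finrank_fintype_fun_eq_card]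
  have hfix : ∀ w ∈ W, Matrix.mulVecLin g w = w := by
    intro w hw
    have := End.mem_eigenspace_iff.1 hw
    rwa [one_smul] at this
  have he : W ≤ W.comap (Matrix.mulVecLin g) := by
    intro w hw
    rw [Submodule.mem_comap, hfix w hw]
    exact hw
  have hd := LinearMap.det_eq_det_mul_det W (Matrix.mulVecLin g) he
  have h1 : (Matrix.mulVecLin g).restrict he = LinearMap.id := by
    ext w
    simp only [LinearMap.coe_restrict_apply, LinearMap.id_apply]
    rw [hfix w.1 w.2]
  have h3 : W.mapQ W (Matrix.mulVecLin g) he = (-1 : F) • LinearMap.id := by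
    apply LinearMap.ext
    intro x
    obtain ⟨w, rfl⟩ := Submodule.Quotient.mk_surjective W x
    obtain ⟨a, b, ha, hb, rfl⟩ := eig_decomp h2 g hgg w
    rw [Submodule.mapQ_apply, LinearMap.smul_apply, LinearMap.id_apply, ← Submodule.Quotient.mk_smul,
      Submodule.Quotient.eq]
    have e : Matrix.mulVecLin g (a + b) - (-1 : F) • (a + b) = (2 : F) • a := by
      rw [Matrix.mulVecLin_apply, Matrix.mulVec_add, ha, hb]; module
    rw [e]
    exact W.smul_mem _ (End.mem_eigenspace_iff.2 (by rw [one_smul]; exact ha))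
  have hdetg : LinearMap.det (Matrix.mulVecLin g) = g.det := by
    rw [← Matrix.toLin'_apply', LinearMap.det_toLin']
  rw [hdetg, hdet, h1, h3, LinearMap.det_id, one_mul, LinearMap.det_smul, LinearMap.det_id,
    mul_one] at hd
  have hq := Submodule.finrank_quotient_add_finrank W
  rw [Module.finrank_fintype_fun_eq_card] at hq
  have hodd : Odd (finrank F ((ι → F) ⧸ W)) := by
    by_contra hne
    rw [Nat.not_odd_iff_even] at hne
    rw [hne.neg_one_pow] at hd
    apply h2
    linear_combination -hd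
  have hW1 : Odd (finrank F W) := by
    rcases hodd with ⟨a, ha⟩
    rcases hev with ⟨b, hb⟩
    exact ⟨b - a - 1, by omega⟩
  refine ⟨hW1, ?_, hsum⟩
  rcases hW1 with ⟨a, ha⟩
  rcases hev with ⟨b, hb⟩
  exact ⟨b - a - 1, by omega⟩

end Cfsg.Agent.Lib.Helper63.LBM
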