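import Cfsg.Agent.Lib.Helper63.LBMES2
import Cfsg.Agent.Lib.Helper1.LBMH

set_option autoImplicit false

/-! # S2733 farm (helper80), piece [K1b] `odd_of_typeII` (helper63) -/

namespace Cfsg.Agent.Lib.Helper63.LBM

open Matrix QuadraticMap Module Cfsg.Agent.Lib.Helper13.OOut Cfsg.Agent.Lib.Helper43.PA
  Cfsg.Agent.Lib.Helper43.PO Cfsg.Agent.Lib.Helper44 Cfsg.Agent.Lib.Helper80.LBM

universe u

variable {F : Type u} [Field F] {ι : Type} [Fintype ι] [DecidableEq ι]

/-- [K1b] (uses wave 1 [H] exists_E_basis). -/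
theorem odd_of_typeII (g : Matrix ι ι F) (μ : F) (hμ : ¬ IsSquare μ)
    (hgg : g * g = μ • (1 : Matrix ι ι F)) {n : ℕ} (hι : Fintype.card ι = 2 * n)
    (hdet : g.det ≠ μ ^ n) : Odd n := by
  obtain ⟨d, P, P', h1, h2, h3⟩ := Cfsg.Agent.Lib.Helper1.LBM.exists_E_basis g μ hμ hgg
  have hd : g.det = (-μ) ^ d := by
    rw [← det_g0, ← h3]
    exact (Matrix.det_conj_of_mul_eq_one h2 h1).symm
  have hcard : Fintype.card ι = Fintype.card (Fin d ⊕ Fin d) := by
    have e := Matrix.toLin'OfInv h1 h2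
    have := e.finrank_eq
    simpa using this
  have hdn : d = n := by
    rw [Fintype.card_sum, Fintype.card_fin, hι] at hcard
    omega
  subst hdn
  by_contra hodd
  rw [Nat.not_odd_iff_even] at hodd
  exact hdet (by rw [hd, hodd.neg_pow])

end Cfsg.Agent.Lib.Helper63.LBM
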