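import Cfsg.Agent.Lib.Helper63.LBMSC

set_option autoImplicit false

/-! # S2733 farm (helper80), piece [K4] `hc_I` (helper63) -/

namespace Cfsg.Agent.Lib.Helper63.LBM

open Matrix QuadraticMap Module Cfsg.Agent.Lib.Helper13.OOut Cfsg.Agent.Lib.Helper43.PA
  Cfsg.Agent.Lib.Helper43.PO Cfsg.Agent.Lib.Helper44 Cfsg.Agent.Lib.Helper80.LBM

universe u

variable {F : Type u} [Field F] {ι : Type} [Fintype ι] [DecidableEq ι]

theorem eig_orth' (h2 : (2 : F) ≠ 0) (Q : QuadraticForm F (ι → F)) (g : Matrix ι ι F)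
    (hg : ∀ v, Q (g *ᵥ v) = Q v) (e : F) (he : e = 1 ∨ e = -1) (u w : ι → F)
    (hu : g *ᵥ u = e • u) (hw : g *ᵥ w = (-e) • w) : polar Q u w = 0 := by
  rcases he with rfl | rfl
  · exact eig_orth h2 Q g hg u w (by simpa using hu) (by simpa using hw)
  · rw [polar_comm]
    exact eig_orth h2 Q g hg w u (by simpa using hw) (by simpa using hu)

theorem eig_decomp' (h2 : (2 : F) ≠ 0) (g : Matrix ι ι F) (hgg : g * g = 1) (e : F)
    (he : e = 1 ∨ e = -1) (w : ι → F) :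
    ∃ a b : ι → F, g *ᵥ a = e • a ∧ g *ᵥ b = (-e) • b ∧ w = a + b := by
  obtain ⟨a, b, ha, hb, rfl⟩ := eig_decomp h2 g hgg w
  rcases he with rfl | rfl
  · exact ⟨a, b, by simpa using ha, by simpa using hb, rfl⟩
  · exact ⟨b, a, by simpa using hb, by simpa using ha, add_comm _ _⟩

/-- a nonsingular eigenvector. -/
theorem exists_nonsing_eig (h2 : (2 : F) ≠ 0) (Q : QuadraticForm F (ι → F))
    (hQ : (polarBilin Q).Nondegenerate) (g : Matrix ι ι F) (hg : ∀ v, Q (g *ᵥ v) = Q v)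
    (hgg : g * g = 1) (e : F) (he : e = 1 ∨ e = -1)
    (hd : 1 ≤ finrank F (End.eigenspace (Matrix.mulVecLin g) e)) :
    ∃ w, g *ᵥ w = e • w ∧ Q w ≠ 0 := by
  have hq := eig_nondeg h2 Q hQ g hg hgg e he
  obtain ⟨v, -, hv⟩ := exists_nonsingular_of_finrank hq ⊤ (by rw [finrank_top]; omega)
  exact ⟨v, End.mem_eigenspace_iff.1 v.2, hv⟩

/-- the linear core of [K4]. -/
theorem hc_I_lin (h2 : (2 : F) ≠ 0) (Q : QuadraticForm F (ι → F))
    (hQ : (polarBilin Q).Nondegenerate) (g : Matrix ι ι F) (hg : ∀ v, Q (g *ᵥ v) = Q v)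
    (hgg : g * g = 1) (e : F) (he : e = 1 ∨ e = -1) (Z : Matrix ι ι F) (ν : F)
    (hZ : ∀ v, Q (Z *ᵥ v) = ν * Q v) (α : F) (hα0 : α ≠ 0)
    (hα : ∀ w, g *ᵥ w = e • w → Z *ᵥ w = α • w)
    (hd : 1 ≤ finrank F (End.eigenspace (Matrix.mulVecLin g) e))
    (hd' : finrank F (End.eigenspace (Matrix.mulVecLin g) (-e)) = 1 ∨
      ∃ β : F, ∀ w, g *ᵥ w = (-e) • w → Z *ᵥ w = β • w) :
    ∃ c : F, Z * Z = c • (1 : Matrix ι ι F) := by
  have he' : -e = 1 ∨ -e = -1 := by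
    rcases he with rfl | rfl
    · right; rfl
    · left; simp
  have hsq : ∀ (e' : F), (e' = 1 ∨ e' = -1) →
      1 ≤ finrank F (End.eigenspace (Matrix.mulVecLin g) e') → ∀ γ : F,
      (∀ w, g *ᵥ w = e' • w → Z *ᵥ w = γ • w) → γ * γ = ν := by
    intro e' he' hd γ hγ
    obtain ⟨w, hw, hw0⟩ := exists_nonsing_eig h2 Q hQ g hg hgg e' he' hd
    have h1 := hZ w
    rw [hγ w hw, QuadraticMap.map_smul, smul_eq_mul] at h1
    exact mul_right_cancel₀ hw0 h1
  have hpolZ : ∀ a b, polar Q (Z *ᵥ a) (Z *ᵥ b) = ν * polar Q a b := by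
    intro a b
    unfold polar
    rw [← Matrix.mulVec_add, hZ, hZ, hZ]
    ring
  -- `Z` stabilises the other eigenspace
  have hstab : ∀ w, g *ᵥ w = (-e) • w → g *ᵥ (Z *ᵥ w) = (-e) • (Z *ᵥ w) := by
    intro w hw
    obtain ⟨a, b, ha, hb, hab⟩ := eig_decomp' h2 g hgg e he (Z *ᵥ w)
    have hq := eig_nondeg h2 Q hQ g hg hgg e he
    have ha0 : (⟨a, End.mem_eigenspace_iff.2 ha⟩ : End.eigenspace (Matrix.mulVecLin g) e) = 0 := by
      apply hq.1
      intro y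
      have hy : g *ᵥ (y : ι → F) = e • (y : ι → F) := End.mem_eigenspace_iff.1 y.2
      show polar (Q.comp (End.eigenspace (Matrix.mulVecLin g) e).subtype) _ _ = 0
      have h0 : polar (Q.comp (End.eigenspace (Matrix.mulVecLin g) e).subtype)
          (⟨a, End.mem_eigenspace_iff.2 ha⟩ : End.eigenspace (Matrix.mulVecLin g) e) y
          = polar Q a (y : ι → F) := by
        simp [polar]
      rw [h0]
      have h1 : polar Q (Z *ᵥ w) (Z *ᵥ (y : ι → F)) = 0 := by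
        rw [hpolZ, polar_comm, eig_orth' h2 Q g hg e he _ _ hy hw, mul_zero]
      rw [hα _ hy, polar_smul_right, smul_eq_mul, hab, polar_add_left,
        polar_comm Q b, eig_orth' h2 Q g hg e he _ _ hy hb, add_zero] at h1
      exact (mul_eq_zero.1 h1).resolve_left hα0
    have ha0' : a = 0 := congrArg Subtype.val ha0
    rw [hab, ha0', zero_add]
    exact hb
  have hβ : ∃ β : F, ∀ w, g *ᵥ w = (-e) • w → Z *ᵥ w = β • w := by
    rcases hd' with h1 | h
    · obtain ⟨w0, hw0, hall⟩ := finrank_eq_one_iff'.1 h1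
      obtain ⟨β, hβ⟩ := hall ⟨Z *ᵥ (w0 : ι → F),
        End.mem_eigenspace_iff.2 (hstab _ (End.mem_eigenspace_iff.1 w0.2))⟩
      have hβ' : β • (w0 : ι → F) = Z *ᵥ (w0 : ι → F) := congrArg Subtype.val hβ
      refine ⟨β, fun w hw => ?_⟩
      obtain ⟨c, hc⟩ := hall ⟨w, End.mem_eigenspace_iff.2 hw⟩
      have hc' : c • (w0 : ι → F) = w := congrArg Subtype.val hc
      rw [← hc', Matrix.mulVec_smul, ← hβ', smul_comm]
    · exact h
  obtain ⟨β, hβ⟩ := hβ
  have hαα : α * α = ν := hsq e he hd α hα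
  refine ⟨ν, ?_⟩
  apply Matrix.mulVec_injective
  funext v
  obtain ⟨a, b, ha, hb, rfl⟩ := eig_decomp' h2 g hgg e he v
  by_cases hb0 : b = 0
  · subst hb0
    rw [add_zero, ← Matrix.mulVec_mulVec, hα a ha, Matrix.mulVec_smul, hα a ha, smul_smul, hαα,
      Matrix.smul_mulVec, Matrix.one_mulVec]
  · have hd2 : 1 ≤ finrank F (End.eigenspace (Matrix.mulVecLin g) (-e)) := by
      rw [Nat.succ_le_iff, finrank_pos_iff_exists_ne_zero]
      exact ⟨⟨b, End.mem_eigenspace_iff.2 hb⟩, fun h => hb0 (congrArg Subtype.val h)⟩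
    have hββ : β * β = ν := hsq (-e) he' hd2 β hβ
    rw [← Matrix.mulVec_mulVec, Matrix.mulVec_add, hα a ha, hβ b hb, Matrix.mulVec_add,
      Matrix.mulVec_smul, Matrix.mulVec_smul, hα a ha, hβ b hb, smul_smul, smul_smul, hαα, hββ,
      Matrix.smul_mulVec, Matrix.one_mulVec, smul_add]

/-- [K4] with a chosen big eigenspace. -/
theorem hc_I_aux [Fintype F] (h2 : (2 : F) ≠ 0) (Q : QuadraticForm F (ι → F))
    (hQ : (polarBilin Q).Nondegenerate) (hn : 5 ≤ Fintype.card ι)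
    (g : GL ι F) (hg : ∀ v, Q ((g : Matrix ι ι F) *ᵥ v) = Q v) (hgg : g * g = 1)
    (z : SG F ι) (hzG : z ∈ Gam ⇑Q) (hz : CommSq ⇑Q g z) (e : F) (he : e = 1 ∨ e = -1)
    (hd : 3 ≤ finrank F (End.eigenspace (Matrix.mulVecLin (g : Matrix ι ι F)) e))
    (hd' : Odd (finrank F (End.eigenspace (Matrix.mulVecLin (g : Matrix ι ι F)) (-e)))) :
    z.right = 1 ∧ ∃ c : F, (z.left : Matrix ι ι F) * (z.left : Matrix ι ι F)
      = c • (1 : Matrix ι ι F) := by
  have hgg' : (g : Matrix ι ι F) * (g : Matrix ι ι F) = 1 := by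
    rw [← Units.val_mul, hgg, Units.val_one]
  have he' : -e = 1 ∨ -e = -1 := by
    rcases he with rfl | rfl
    · right; rfl
    · left; simp
  obtain ⟨α, hα⟩ := eig_scalar h2 Q hQ hn g hg hgg z hz e he hd
  obtain ⟨w, hw, hw0⟩ := exists_nonsing_eig h2 Q hQ (g : Matrix ι ι F) hg hgg' e he (by omega)
  have hwne : w ≠ 0 := by
    rintro rfl
    exact hw0 (map_zero Q)
  have hα0 : α ≠ 0 := by
    rintro rfl
    have h1 := hα w hw
    rw [zero_smul] at h1
    have h3 := act_inv_act z w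
    rw [h1] at h3
    have h4 : act z⁻¹ (0 : ι → F) = 0 := (actHom z⁻¹).map_zero
    exact hwne (h3.symm.trans h4)
  have hσ : z.right = 1 := by
    ext c
    have h1 := hα (c • w) (by rw [Matrix.mulVec_smul, hw, smul_comm])
    rw [act_smul, hα w hw, smul_smul, smul_smul] at h1
    have h3 : (z.right c * α - α * c) • w = 0 := by rw [sub_smul, h1, sub_self]
    have h4 := (smul_eq_zero.1 h3).resolve_right hwne
    have h5 : z.right c * α = c * α := by linear_combination h4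
    exact mul_right_cancel₀ hα0 h5
  refine ⟨hσ, ?_⟩
  have hact : ∀ v, act z v = (z.left : Matrix ι ι F) *ᵥ v := by
    intro v
    rw [act_def, hσ]
    rfl
  obtain ⟨ν, hν⟩ := hzG
  have hZ : ∀ v, Q ((z.left : Matrix ι ι F) *ᵥ v) = (ν : F) * Q v := by
    intro v
    have := hν v
    rw [hσ] at this
    exact this
  refine hc_I_lin h2 Q hQ (g : Matrix ι ι F) hg hgg' e he (z.left : Matrix ι ι F) ν hZ α hα0
    (fun w hw => by rw [← hact]; exact hα w hw) (by omega) ?_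
  by_cases h3 : 3 ≤ finrank F (End.eigenspace (Matrix.mulVecLin (g : Matrix ι ι F)) (-e))
  · right
    obtain ⟨β, hβ⟩ := eig_scalar h2 Q hQ hn g hg hgg z hz (-e) he' h3
    exact ⟨β, fun w hw => by rw [← hact]; exact hβ w hw⟩
  · left
    obtain ⟨k, hk⟩ := hd'
    omega

/-- [K4] rigidity, type I (uses ES1, ES2, SC). -/
theorem hc_I [Fintype F] (h2 : (2 : F) ≠ 0) (Q : QuadraticForm F (ι → F))
    (hQ : (polarBilin Q).Nondegenerate) (hn : 8 ≤ Fintype.card ι) (hev : Even (Fintype.card ι))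
    (g : GL ι F) (hg : ∀ v, Q ((g : Matrix ι ι F) *ᵥ v) = Q v) (hgg : g * g = 1)
    (hdet : (g : Matrix ι ι F).det = -1) (z : SG F ι) (hzG : z ∈ Gam ⇑Q)
    (hz : CommSq ⇑Q g z) :
    z.right = 1 ∧ ∃ c : F, (z.left : Matrix ι ι F) * (z.left : Matrix ι ι F)
      = c • (1 : Matrix ι ι F) := by
  have hgg' : (g : Matrix ι ι F) * (g : Matrix ι ι F) = 1 := by
    rw [← Units.val_mul, hgg, Units.val_one]
  obtain ⟨ho1, ho2, hsum⟩ := eig_odd h2 (g : Matrix ι ι F) hgg' hdet hev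
  by_cases h3 : 3 ≤ finrank F (End.eigenspace (Matrix.mulVecLin (g : Matrix ι ι F)) 1)
  · exact hc_I_aux h2 Q hQ (by omega) g hg hgg z hzG hz 1 (Or.inl rfl) h3 ho2
  · exact hc_I_aux h2 Q hQ (by omega) g hg hgg z hzG hz (-1) (Or.inr rfl) (by omega)
      (by rw [neg_neg]; exact ho1)

end Cfsg.Agent.Lib.Helper63.LBM
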