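import Cfsg.Agent.Lib.Helper63.LBMES2
import Cfsg.Agent.Lib.Helper8.LBMA
import Cfsg.Agent.Lib.Helper80.LBM.EC

set_option autoImplicit false

/-! # S2733 farm (helper80), piece [SC] `eig_scalar` (helper63) -/

namespace Cfsg.Agent.Lib.Helper63.LBM

open Matrix QuadraticMap Module Cfsg.Agent.Lib.Helper13.OOut Cfsg.Agent.Lib.Helper43.PA
  Cfsg.Agent.Lib.Helper43.PO Cfsg.Agent.Lib.Helper44 Cfsg.Agent.Lib.Helper80.LBM

universe u

variable {F : Type u} [Field F] {ι : Type} [Fintype ι] [DecidableEq ι]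

/-- the additive map underlying `act z`. -/
def actHom (z : SG F ι) : (ι → F) →+ (ι → F) where
  toFun := act z
  map_zero' := by
    have := act_smul z 0 (0 : ι → F)
    simpa using this
  map_add' := act_add z

@[simp] theorem actHom_apply (z : SG F ι) (v : ι → F) : actHom z v = act z v := rfl

omit [DecidableEq ι] in
theorem polar_isom (Q : QuadraticForm F (ι → F)) (g : Matrix ι ι F)
    (hg : ∀ v, Q (g *ᵥ v) = Q v) (a b : ι → F) : polar Q (g *ᵥ a) (g *ᵥ b) = polar Q a b := by
  unfold polar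
  rw [← Matrix.mulVec_add, hg, hg, hg]

omit [DecidableEq ι] in
theorem polar_eig (Q : QuadraticForm F (ι → F)) (g : Matrix ι ι F)
    (hg : ∀ v, Q (g *ᵥ v) = Q v) (e : F) (he : e * e = 1) (a b : ι → F) (ha : g *ᵥ a = e • a) :
    polar Q a (g *ᵥ b) = e * polar Q a b := by
  have h1 := polar_isom Q g hg a b
  rw [ha, polar_smul_left, smul_eq_mul] at h1
  calc polar Q a (g *ᵥ b) = (e * e) * polar Q a (g *ᵥ b) := by rw [he, one_mul]
    _ = e * (e * polar Q a (g *ᵥ b)) := by ring
    _ = e * polar Q a b := by rw [h1]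

/-- `g` commutes with the Eichler transformations built inside one of its eigenspaces. -/
theorem eichler_comm_eig (Q : QuadraticForm F (ι → F)) (g : Matrix ι ι F)
    (hg : ∀ v, Q (g *ᵥ v) = Q v) (e : F) (he : e * e = 1) (u v : ι → F)
    (hgu : g *ᵥ u = e • u) (hgv : g *ᵥ v = e • v) (hu : Q u = 0) (huv : polar Q u v = 0)
    (w : ι → F) :
    g *ᵥ (eichler Q u v hu huv w) = eichler Q u v hu huv (g *ᵥ w) := by
  rw [eichler_apply, eichler_apply, polar_eig Q g hg e he v w hgv, polar_eig Q g hg e he u w hgu]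
  simp only [Matrix.mulVec_add, Matrix.mulVec_sub, Matrix.mulVec_smul, hgu, hgv]
  module

/-- [SC] `z` is a scalar on an eigenspace of dimension at least three
(uses EL, EC, ES1 and wave 1 [A] rig_add). -/
theorem eig_scalar [Fintype F] (h2 : (2 : F) ≠ 0) (Q : QuadraticForm F (ι → F))
    (hQ : (polarBilin Q).Nondegenerate) (hn : 5 ≤ Fintype.card ι) (g : GL ι F)
    (hg : ∀ v, Q ((g : Matrix ι ι F) *ᵥ v) = Q v) (hgg : g * g = 1) (z : SG F ι)
    (hz : CommSq ⇑Q g z) (e : F) (he : e = 1 ∨ e = -1)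
    (hd : 3 ≤ finrank F (End.eigenspace (Matrix.mulVecLin (g : Matrix ι ι F)) e)) :
    ∃ α : F, ∀ w, (g : Matrix ι ι F) *ᵥ w = e • w → act z w = α • w := by
  have hgg' : (g : Matrix ι ι F) * (g : Matrix ι ι F) = 1 := by
    rw [← Units.val_mul, hgg, Units.val_one]
  have hee : e * e = 1 := by rcases he with rfl | rfl <;> ring
  set W := End.eigenspace (Matrix.mulVecLin (g : Matrix ι ι F)) e with hW
  have hq := eig_nondeg h2 Q hQ (g : Matrix ι ι F) hg hgg' e he
  rw [← hW] at hq
  have hpol : ∀ x y : W, polar (Q.comp W.subtype) x y = polar Q (x : ι → F) (y : ι → F) := by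
    intro x y
    simp [polar]
  have hf : ∀ u : W, (Q.comp W.subtype) u = 0 →
      ∃ c : F, ((actHom z).comp W.subtype.toAddMonoidHom) u = c • W.subtype u := by
    intro u hu
    have hu' : Q (u : ι → F) = 0 := hu
    by_cases hu0 : u = 0
    · refine ⟨0, ?_⟩
      rw [hu0, map_zero, map_zero, smul_zero]
    have hgu : (g : Matrix ι ι F) *ᵥ (u : ι → F) = e • (u : ι → F) := End.mem_eigenspace_iff.1 u.2
    -- a nonsingular vector of `W` orthogonal to `u`
    set K : Submodule F W := LinearMap.ker (polarBilin (Q.comp W.subtype) u) with hK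
    have hKd : finrank F W ≤ finrank F K + 1 := by
      have h1 := LinearMap.finrank_range_add_finrank_ker (polarBilin (Q.comp W.subtype) u)
      have h3 : finrank F (LinearMap.range (polarBilin (Q.comp W.subtype) u)) ≤ 1 := by
        have := Submodule.finrank_le (LinearMap.range (polarBilin (Q.comp W.subtype) u))
        rwa [finrank_self] at this
      rw [← hK] at h1
      omega
    obtain ⟨v, hvK, hv⟩ := exists_nonsingular_of_finrank hq K (by omega)
    have huv : polar Q (u : ι → F) (v : ι → F) = 0 := by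
      rw [← hpol]
      exact LinearMap.mem_ker.1 hvK
    have hv' : Q (v : ι → F) ≠ 0 := hv
    have hgv : (g : Matrix ι ι F) *ᵥ (v : ι → F) = e • (v : ι → F) := End.mem_eigenspace_iff.1 v.2
    have hEC := act_eichler_of_commSq h2 Q hQ hn g z hz (u : ι → F) (v : ι → F) hu' huv
      (fun w => eichler_comm_eig Q (g : Matrix ι ι F) hg e hee (u : ι → F) ((2⁻¹ : F) • (v : ι → F))
        hgu (by rw [Matrix.mulVec_smul, hgv, smul_comm]) hu' _ w)
    have hw : ∃ w, polar Q (u : ι → F) w ≠ 0 := by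
      by_contra hcon
      push Not at hcon
      apply hu0
      apply Subtype.ext
      exact hQ.1 _ hcon
    exact eichler_line h2 Q (u : ι → F) (v : ι → F) hu' huv hv' hw (actHom z) hEC
  obtain ⟨α, hα⟩ := Cfsg.Agent.Lib.Helper8.LBM.rig_add h2 (Q.comp W.subtype) hq hd W.subtype
    W.injective_subtype ((actHom z).comp W.subtype.toAddMonoidHom) hf
  refine ⟨α, fun w hw => ?_⟩
  exact hα ⟨w, End.mem_eigenspace_iff.2 hw⟩

end Cfsg.Agent.Lib.Helper63.LBM
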