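import Mathlib
import Cfsg.Agent.Lib.Helper63.PLength
import Cfsg.Agent.Lib.Helper76.PSolvable

/-!
More API for `Cfsg.upperPSeries` / `Cfsg.PLengthLE`, for `p`-soluble groups.
-/

set_option autoImplicit false

namespace Cfsg.Agent.Lib.Helper63

open Cfsg

variable {G : Type*} [Group G]

theorem card_ups_one_coprime [Finite G] {p : ℕ} (hp : p.Prime) :
    (Nat.card (ups p G 1)).Coprime p := by
  have := (ups_stepOK (G := G) hp 0).1 (by simp)
  rwa [ups_zero, Subgroup.relIndex_bot_left] at this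

theorem le_ups_one {p : ℕ} (B : Subgroup G) [B.Normal] (h : (Nat.card B).Coprime p) :
    B ≤ ups p G 1 := by
  apply le_ups_succ_of_coprime p (n := 0) (by simp) B
  rwa [ups_zero, Subgroup.relIndex_bot_left]

theorem ups_one_eq [Finite G] {p : ℕ} (hp : p.Prime) : ups p G 1 = pPrimeCore p G := by
  apply le_antisymm
  · exact Cfsg.Agent.Lib.Helper1.le_pPrimeCore inferInstance (card_ups_one_coprime hp)
  · exact le_ups_one _ (Cfsg.Agent.Lib.Helper1.pPrimeCore_coprime hp)

theorem pPrimeCore_quotient_ups_one [Finite G] {p : ℕ} (hp : p.Prime) :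
    pPrimeCore p (G ⧸ ups p G 1) = ⊥ := by
  set X := pPrimeCore p (G ⧸ ups p G 1) with hX
  have hsurj := QuotientGroup.mk'_surjective (ups p G 1)
  have h1 : (ups p G 1).relIndex (X.comap (QuotientGroup.mk' (ups p G 1))) = Nat.card X :=
    relIndex_comap_mk' _ _
  have hle : ups p G 1 ≤ X.comap (QuotientGroup.mk' (ups p G 1)) := by
    calc ups p G 1 = (QuotientGroup.mk' (ups p G 1)).ker := (QuotientGroup.ker_mk' _).symm
      _ ≤ _ := MonoidHom.ker_le_comap _ _
  have h2 := Subgroup.relIndex_mul_relIndex ⊥ _ _ bot_le hle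
  rw [Subgroup.relIndex_bot_left, Subgroup.relIndex_bot_left, h1] at h2
  have h3 : X.comap (QuotientGroup.mk' (ups p G 1)) ≤ ups p G 1 := by
    apply le_ups_one
    rw [← h2]
    exact Nat.Coprime.mul_left (card_ups_one_coprime hp) (Cfsg.Agent.Lib.Helper1.pPrimeCore_coprime hp)
  rw [← Subgroup.map_comap_eq_self_of_surjective hsurj X, eq_bot_iff,
    ← QuotientGroup.map_mk'_self (ups p G 1)]
  exact Subgroup.map_mono h3

theorem ups_two_eq (p : ℕ) :
    ups p G 2 = (pCore p (G ⧸ ups p G 1)).comap (QuotientGroup.mk' (ups p G 1)) :=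
  ups_succ_odd p (n := 1) (by decide)

/-- converse of `PLengthLE.quotient_ups_two` -/
theorem PLengthLE.of_quotient_ups_two [Finite G] {p : ℕ} (hp : p.Prime) {k : ℕ}
    (h : PLengthLE p k (G ⧸ ups p G 2)) : PLengthLE p (k + 1) G := by
  have hsurj := QuotientGroup.mk'_surjective (ups p G 2)
  have := chain_le_ups hp 2
    (fun n => (ups p (G ⧸ ups p G 2) n).comap (QuotientGroup.mk' (ups p G 2)))
    (fun n => inferInstance)
    (by
      simp only [ups_zero]
      rw [MonoidHom.comap_bot, QuotientGroup.ker_mk'])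
    (by
      intro n
      refine ((ups_stepOK (G := G ⧸ ups p G 2) hp n).of_dvd hp ?_).congr_parity ?_
      · rw [relIndex_comap_comap _ hsurj]
      · simp [Nat.even_add]) (2 * k + 1)
  have h2 : ups p (G ⧸ ups p G 2) (2 * k + 1) = ⊤ := h
  simp only [h2, Subgroup.comap_top] at this
  have e : 2 * k + 1 + 2 = 2 * (k + 1) + 1 := by ring
  rw [e] at this
  exact top_le_iff.mp this

/-- In a `p`-soluble group the centre of a Sylow `p`-subgroup lies in `O_{p',p}(G)`. -/
theorem center_sylow_le_ups_two [Finite G] {p : ℕ} [hp : Fact p.Prime] (hsol : IsPSolvable p G)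
    (S : Sylow p G) : (S : Subgroup G) ⊓ Subgroup.centralizer ((S : Subgroup G) : Set G) ≤ ups p G 2 := by
  set π := QuotientGroup.mk' (ups p G 1) with hπ
  have hsurj : Function.Surjective π := QuotientGroup.mk'_surjective _
  have h1 := Cfsg.Agent.Lib.Helper76.centralizer_pCore_le
    (Cfsg.Agent.Lib.Helper76.isPSolvable_quotient (ups p G 1) hsol) (pPrimeCore_quotient_ups_one hp.out)
  have h2 : pCore p (G ⧸ ups p G 1) ≤ (S : Subgroup G).map π := by
    have := Cfsg.Agent.Lib.Helper1.pCore_le_sylow (S.mapSurjective hsurj)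
    rwa [Sylow.coe_mapSurjective] at this
  intro z hz
  obtain ⟨_, hz2⟩ := Subgroup.mem_inf.mp hz
  rw [ups_two_eq, Subgroup.mem_comap]
  apply h1
  rw [Subgroup.mem_centralizer_iff]
  intro y hy
  obtain ⟨s, hs, rfl⟩ := h2 hy
  have := Subgroup.mem_centralizer_iff.mp hz2 s hs
  show π s * π z = π z * π s
  rw [← map_mul, ← map_mul, this]

end Cfsg.Agent.Lib.Helper63
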