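import Mathlib
import Cfsg.Agent.Lib.Helper63.SuzCenter

/-!
Two central extensions of an elementary abelian 2-group by an elementary abelian 2-group having the
same squaring map are isomorphic.
-/

set_option autoImplicit false

namespace Cfsg.Agent.Lib.Helper63.Suz

open scoped commutatorElement

/-- coordinates `α : P → F` (a surjective homomorphism with central kernel) and `β : ker α ≃ F`
such that the squaring map is `s`. -/
structure ExtData (P : Type*) [Group P] (F : Type*) [AddCommGroup F] (s : F → F) (α β : P → F) :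
    Prop where
  α_mul : ∀ x y, α (x * y) = α x + α y
  α_surj : Function.Surjective α
  cen : ∀ z, α z = 0 → ∀ g, g * z = z * g
  β_mul : ∀ x y, α x = 0 → α y = 0 → β (x * y) = β x + β y
  β_inj : ∀ x, α x = 0 → β x = 0 → x = 1
  β_surj : ∀ c, ∃ x, α x = 0 ∧ β x = c
  sq : ∀ g, β (g * g) = s (α g)

section
variable {P : Type*} [Group P] {F : Type*} [AddCommGroup F] {s : F → F} {α β : P → F}

theorem ExtData.α_one (h : ExtData P F s α β) : α 1 = 0 := by
  have := h.α_mul 1 1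
  rw [mul_one] at this
  exact left_eq_add.mp this

theorem ExtData.α_inv (h : ExtData P F s α β) (x : P) : α x⁻¹ = - α x := by
  have := h.α_mul x⁻¹ x
  rw [inv_mul_cancel, h.α_one] at this
  exact eq_neg_of_add_eq_zero_left this.symm

theorem ExtData.β_one (h : ExtData P F s α β) : β 1 = 0 := by
  have := h.β_mul 1 1 h.α_one h.α_one
  rw [mul_one] at this
  exact left_eq_add.mp this

theorem ExtData.β_inv (h : ExtData P F s α β) {x : P} (hx : α x = 0) : β x⁻¹ = - β x := by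
  have := h.β_mul x⁻¹ x (by rw [h.α_inv, hx, neg_zero]) hx
  rw [inv_mul_cancel, h.β_one] at this
  exact eq_neg_of_add_eq_zero_left this.symm

end

theorem ExtData.equiv {P : Type*} [Group P] [Finite P] {Q : Type*} [Group Q] [Finite Q]
    {F : Type*} [AddCommGroup F] (h2 : ∀ a : F, a + a = 0) {s : F → F}
    {αP βP : P → F} {αQ βQ : Q → F}
    (hP : ExtData P F s αP βP) (hQ : ExtData Q F s αQ βQ) : Nonempty (P ≃* Q) := by
  classical
  -- the subgroup `R`
  let R : Subgroup (P × Q) :=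
    { carrier := {x | αP x.1 = αQ x.2}
      one_mem' := by show αP 1 = αQ 1; rw [hP.α_one, hQ.α_one]
      mul_mem' := by
        intro a b ha hb
        show αP (a.1 * b.1) = αQ (a.2 * b.2)
        rw [hP.α_mul, hQ.α_mul]
        have ha' : αP a.1 = αQ a.2 := ha
        have hb' : αP b.1 = αQ b.2 := hb
        rw [ha', hb']
      inv_mem' := by
        intro a ha
        show αP a.1⁻¹ = αQ a.2⁻¹
        have ha' : αP a.1 = αQ a.2 := ha
        rw [hP.α_inv, hQ.α_inv, ha'] }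
  let Δ : Subgroup (P × Q) :=
    { carrier := {x | αP x.1 = 0 ∧ αQ x.2 = 0 ∧ βP x.1 = βQ x.2}
      one_mem' := ⟨hP.α_one, hQ.α_one, by show βP 1 = βQ 1; rw [hP.β_one, hQ.β_one]⟩
      mul_mem' := by
        rintro a b ⟨ha1, ha2, ha3⟩ ⟨hb1, hb2, hb3⟩
        refine ⟨?_, ?_, ?_⟩
        · show αP (a.1 * b.1) = 0
          rw [hP.α_mul, ha1, hb1, add_zero]
        · show αQ (a.2 * b.2) = 0
          rw [hQ.α_mul, ha2, hb2, add_zero]
        · show βP (a.1 * b.1) = βQ (a.2 * b.2)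
          rw [hP.β_mul _ _ ha1 hb1, hQ.β_mul _ _ ha2 hb2, ha3, hb3]
      inv_mem' := by
        rintro a ⟨ha1, ha2, ha3⟩
        refine ⟨?_, ?_, ?_⟩
        · show αP a.1⁻¹ = 0
          rw [hP.α_inv, ha1, neg_zero]
        · show αQ a.2⁻¹ = 0
          rw [hQ.α_inv, ha2, neg_zero]
        · show βP a.1⁻¹ = βQ a.2⁻¹
          rw [hP.β_inv ha1, hQ.β_inv ha2, ha3] }
  have memR : ∀ x : P × Q, x ∈ R ↔ αP x.1 = αQ x.2 := fun _ => Iff.rfl
  have memΔ : ∀ x : P × Q, x ∈ Δ ↔ αP x.1 = 0 ∧ αQ x.2 = 0 ∧ βP x.1 = βQ x.2 := fun _ => Iff.rfl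
  have hΔR : Δ ≤ R := by
    intro x hx
    rw [memΔ] at hx
    rw [memR, hx.1, hx.2.1]
  have hsq : ∀ x ∈ R, x * x ∈ Δ := by
    intro x hx
    rw [memR] at hx
    rw [memΔ]
    refine ⟨?_, ?_, ?_⟩
    · show αP (x.1 * x.1) = 0
      rw [hP.α_mul, h2]
    · show αQ (x.2 * x.2) = 0
      rw [hQ.α_mul, h2]
    · show βP (x.1 * x.1) = βQ (x.2 * x.2)
      rw [hP.sq, hQ.sq, hx]
  have hcomm : ∀ x ∈ R, ∀ y ∈ R, ⁅x, y⁆ ∈ Δ := by
    intro x hx y hy
    rw [comm_eq_squares]
    exact Δ.mul_mem (Δ.mul_mem (hsq _ (R.mul_mem hx hy))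
      (hsq _ (R.mul_mem (R.mul_mem (R.inv_mem hy) (R.inv_mem hx)) hy))) (hsq _ (R.inv_mem hy))
  -- the family
  let S : Set (Subgroup (P × Q)) := {C | Δ ≤ C ∧ C ≤ R ∧ ∀ x ∈ C, x.1 = 1 → x = 1}
  have hΔS : Δ ∈ S := by
    refine ⟨le_rfl, hΔR, ?_⟩
    intro x hx hx1
    rw [memΔ] at hx
    have : x.2 = 1 := by
      apply hQ.β_inj _ hx.2.1
      rw [← hx.2.2, hx1, hP.β_one]
    exact Prod.ext hx1 this
  obtain ⟨C, hC⟩ := (Set.toFinite S).exists_maximal ⟨Δ, hΔS⟩
  obtain ⟨⟨hΔC, hCR, hC1⟩, hmax⟩ := hC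
  have hnorm : ∀ r ∈ R, ∀ c ∈ C, r * c * r⁻¹ ∈ C := by
    intro r hr c hc
    have : r * c * r⁻¹ = ⁅r, c⁆ * c := by
      rw [commutatorElement_def]; group
    rw [this]
    exact C.mul_mem (hΔC (hcomm r hr c (hCR hc))) hc
  have hfst : ∀ p : P, ∃ x ∈ C, x.1 = p := by
    intro p
    by_contra hcon
    push Not at hcon
    obtain ⟨q, hq⟩ := hQ.α_surj (αP p)
    have hr : ((p, q) : P × Q) ∈ R := by rw [memR]; exact hq.symm
    set r : P × Q := (p, q) with hrdef
    have hrr : r * r ∈ C := hΔC (hsq r hr)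
    let C' : Subgroup (P × Q) :=
      { carrier := {x | x ∈ C ∨ x * r⁻¹ ∈ C}
        one_mem' := Or.inl C.one_mem
        mul_mem' := by
          rintro a b (ha | ha) (hb | hb)
          · exact Or.inl (C.mul_mem ha hb)
          · right
            rw [mul_assoc]
            exact C.mul_mem ha hb
          · right
            have : a * b * r⁻¹ = (a * r⁻¹) * (r * b * r⁻¹) := by group
            rw [this]
            exact C.mul_mem ha (hnorm r hr b hb)
          · left
            have : a * b = (a * r⁻¹) * (r * (b * r⁻¹) * r⁻¹) * (r * r) := by group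
            rw [this]
            exact C.mul_mem (C.mul_mem ha (hnorm r hr _ hb)) hrr
        inv_mem' := by
          rintro a (ha | ha)
          · exact Or.inl (C.inv_mem ha)
          · right
            have : a⁻¹ * r⁻¹ = (r⁻¹ * (a * r⁻¹)⁻¹ * r⁻¹⁻¹) * (r * r)⁻¹ := by group
            rw [this]
            exact C.mul_mem (hnorm _ (R.inv_mem hr) _ (C.inv_mem ha)) (C.inv_mem hrr) }
    have memC' : ∀ x, x ∈ C' ↔ x ∈ C ∨ x * r⁻¹ ∈ C := fun _ => Iff.rfl
    have hCC' : C ≤ C' := fun x hx => Or.inl hx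
    have hC'S : C' ∈ S := by
      refine ⟨hΔC.trans hCC', ?_, ?_⟩
      · rintro x (hx | hx)
        · exact hCR hx
        · have := R.mul_mem (hCR hx) hr
          rwa [inv_mul_cancel_right] at this
      · rintro x (hx | hx) hx1
        · exact hC1 x hx hx1
        · exfalso
          apply hcon _ (C.inv_mem hx)
          show (x.1 * p⁻¹)⁻¹ = p
          rw [hx1]; group
    have hle := hmax hC'S hCC'
    have hrC : r ∈ C := hle (Or.inr (by rw [mul_inv_cancel]; exact C.one_mem))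
    exact hcon r hrC rfl
  -- the two projections
  let f1 : C →* P := (MonoidHom.fst P Q).comp C.subtype
  let f2 : C →* Q := (MonoidHom.snd P Q).comp C.subtype
  have hf1 : Function.Bijective f1 := by
    constructor
    · rw [injective_iff_map_eq_one]
      intro x hx
      exact Subtype.ext (hC1 x.1 x.2 hx)
    · intro p
      obtain ⟨x, hx, rfl⟩ := hfst p
      exact ⟨⟨x, hx⟩, rfl⟩
  have hf2 : Function.Bijective f2 := by
    constructor
    · rw [injective_iff_map_eq_one]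
      intro x hx
      have hx2 : x.1.2 = 1 := hx
      have hα : αP x.1.1 = 0 := by
        have := (memR _).1 (hCR x.2)
        rw [this, hx2, hQ.α_one]
      obtain ⟨z, hz1, hz2⟩ := hQ.β_surj (βP x.1.1)
      have h3 : ((x.1.1, z) : P × Q) ∈ C := hΔC ((memΔ _).2 ⟨hα, hz1, hz2.symm⟩)
      have h4 : x.1⁻¹ * (x.1.1, z) ∈ C := C.mul_mem (C.inv_mem x.2) h3
      have h5 := hC1 _ h4 (by show x.1.1⁻¹ * x.1.1 = 1; group)
      have h6 : x.1.2⁻¹ * z = 1 := congrArg Prod.snd h5
      rw [hx2, inv_one, one_mul] at h6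
      rw [h6, hQ.β_one] at hz2
      have h7 : x.1.1 = 1 := hP.β_inj _ hα hz2.symm
      exact Subtype.ext (Prod.ext h7 hx2)
    · intro q
      obtain ⟨p, hp⟩ := hP.α_surj (αQ q)
      obtain ⟨x, hx, rfl⟩ := hfst p
      have hxR := (memR _).1 (hCR hx)
      have hz : αQ (q * x.2⁻¹) = 0 := by
        rw [hQ.α_mul, hQ.α_inv, ← hxR, hp, add_neg_cancel]
      obtain ⟨w, hw1, hw2⟩ := hP.β_surj (βQ (q * x.2⁻¹))
      have h3 : ((w, q * x.2⁻¹) : P × Q) ∈ C := hΔC ((memΔ _).2 ⟨hw1, hz, hw2⟩)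
      refine ⟨⟨_, C.mul_mem h3 hx⟩, ?_⟩
      show q * x.2⁻¹ * x.2 = q
      group
  exact ⟨(MulEquiv.ofBijective f1 hf1).symm.trans (MulEquiv.ofBijective f2 hf2)⟩

end Cfsg.Agent.Lib.Helper63.Suz
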