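import Mathlib
import Cfsg.Agent.Lib.Helper63.FinFieldAdd

/-!
Multiplicative quadratic maps on a finite field of characteristic two are of the form
`x ↦ σ x * τ x`; injectivity of `x ↦ x * θ x` forces `θ` to have odd order.
-/

set_option autoImplicit false

namespace Cfsg.Agent.Lib.Helper63.FFAdd

variable {F : Type*} [Field F]

theorem rho_repr [Fintype F] [CharP F 2] (ρ : F → F)
    (hmul : ∀ a X, ρ (a * X) = ρ a * ρ X)
    (hcube : ∀ X Y Z, ρ (X + Y + Z) + ρ (X + Y) + ρ (X + Z) + ρ (Y + Z) + ρ X + ρ Y + ρ Z = 0)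
    (hne : ∃ X Y, ρ (X + Y) ≠ ρ X + ρ Y) :
    ∃ σ τ : F ≃+* F, σ ≠ τ ∧ ∀ X, ρ X = σ X * τ X := by
  have h2 : (2 : F) = 0 := CharTwo.two_eq_zero
  have hadd : ∀ X Y Z, ρ (X + (Y + Z)) + ρ X + ρ (Y + Z) =
      (ρ (X + Y) + ρ X + ρ Y) + (ρ (X + Z) + ρ X + ρ Z) := by
    intro X Y Z
    rw [← add_assoc]
    linear_combination hcube X Y Z - (ρ (X + Y) + ρ (X + Z) + ρ X + ρ Y + ρ Z) * h2
  let B1 : F → F →+ F := fun X => AddMonoidHom.mk' (fun Y => ρ (X + Y) + ρ X + ρ Y) (hadd X)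
  have hB1 : ∀ X Y, B1 X Y = ρ (X + Y) + ρ X + ρ Y := fun _ _ => rfl
  let B : F →+ F →+ F := AddMonoidHom.mk' B1 (by
    intro X X'
    ext Y
    rw [AddMonoidHom.add_apply, hB1, hB1, hB1]
    have := hadd Y X X'
    rw [add_comm Y (X + X'), add_comm Y X, add_comm Y X'] at this
    linear_combination this)
  have hB : ∀ X Y, B X Y = ρ (X + Y) + ρ X + ρ Y := fun _ _ => rfl
  obtain ⟨c, hc⟩ := biadd_repr B
  have hBa : ∀ a X Y, B (a * X) (a * Y) = ρ a * B X Y := by
    intro a X Y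
    rw [hB, hB, ← mul_add, hmul, hmul, hmul]; ring
  have key : ∀ a σ τ, c σ τ * (σ a * τ a - ρ a) = 0 := by
    intro a σ τ
    have h1 : ∀ Y X : F, ∑ σ, (∑ τ, c σ τ * (σ a * τ a - ρ a) * τ Y) * σ X = 0 := by
      intro Y X
      have h3 := hBa a X Y
      rw [hc, hc, Finset.mul_sum] at h3
      rw [← sub_eq_zero, ← Finset.sum_sub_distrib] at h3
      rw [← h3]
      apply Finset.sum_congr rfl
      intro σ _
      rw [Finset.sum_mul, Finset.mul_sum, ← Finset.sum_sub_distrib]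
      apply Finset.sum_congr rfl
      intro τ _
      rw [map_mul, map_mul]; ring
    have h4 : ∀ Y : F, ∑ τ, c σ τ * (σ a * τ a - ρ a) * τ Y = 0 := fun Y => aut_indep _ (h1 Y) σ
    exact aut_indep _ h4 τ
  obtain ⟨σ, τ, hστ⟩ : ∃ σ τ, c σ τ ≠ 0 := by
    by_contra hcon
    push Not at hcon
    obtain ⟨X, Y, hXY⟩ := hne
    apply hXY
    have h5 : B X Y = 0 := by
      rw [hc]
      apply Finset.sum_eq_zero
      intro σ _
      apply Finset.sum_eq_zero
      intro τ _
      rw [hcon, zero_mul]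
    rw [hB] at h5
    linear_combination h5 - (ρ X + ρ Y) * h2
  have hρ : ∀ X, ρ X = σ X * τ X := by
    intro X
    have := (mul_eq_zero.1 (key X σ τ)).resolve_left hστ
    exact (sub_eq_zero.1 this).symm
  refine ⟨σ, τ, ?_, hρ⟩
  rintro rfl
  obtain ⟨X, Y, hXY⟩ := hne
  apply hXY
  rw [hρ, hρ, hρ, map_add]
  linear_combination (σ X * σ Y) * h2

theorem odd_orderOf [Finite F] (θ : F ≃+* F) (hinj : ∀ X : F, X ≠ 0 → X * θ X = 1 → X = 1) :
    Odd (orderOf θ) := by
  classical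
  have hfix : ∀ Y : F, θ (θ Y) = Y → θ Y = Y := by
    intro Y hY
    by_cases hY0 : Y = 0
    · rw [hY0, map_zero]
    have hθY : θ Y ≠ 0 := by
      intro h
      apply hY0
      exact (map_eq_zero_iff θ θ.injective).1 h
    have h1 : Y / θ Y = 1 := by
      apply hinj
      · exact div_ne_zero hY0 hθY
      · rw [map_div₀, hY]
        field_simp
    rw [div_eq_one_iff_eq hθY] at h1
    exact h1.symm
  letI := Fintype.ofFinite F
  let H : Subgroup (F ≃+* F) := Subgroup.zpowers θ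
  let H2 : Subgroup (F ≃+* F) := Subgroup.zpowers (θ ^ 2)
  have hsub : FixedPoints.subfield H F = FixedPoints.subfield H2 F := by
    ext x
    constructor
    · intro hx g
      obtain ⟨g, hg⟩ := g
      have hgH : g ∈ H := by
        have : H2 ≤ H := by
          rw [Subgroup.zpowers_le]
          exact Subgroup.pow_mem _ (Subgroup.mem_zpowers θ) 2
        exact this hg
      exact hx ⟨g, hgH⟩
    · intro hx g
      obtain ⟨g, hg⟩ := g
      have h1 : (θ ^ 2) x = x := hx ⟨θ ^ 2, Subgroup.mem_zpowers _⟩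
      have h2 : θ x = x := by
        apply hfix
        rw [pow_two] at h1
        exact h1
      have h3 : H ≤ MulAction.stabilizer (F ≃+* F) x := by
        rw [Subgroup.zpowers_le]
        exact h2
      exact h3 hg
  have c1 := FixedPoints.finrank_eq_card H F
  have c2 := FixedPoints.finrank_eq_card H2 F
  rw [hsub, c2] at c1
  have c3 : orderOf (θ ^ 2) = orderOf θ := by
    rw [← Fintype.card_zpowers, ← Fintype.card_zpowers]
    exact c1
  rw [orderOf_pow] at c3
  have hpos : 0 < orderOf θ := orderOf_pos θ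
  have h4 : (orderOf θ).gcd 2 = 1 := by
    have h5 : (orderOf θ).gcd 2 ∣ orderOf θ := Nat.gcd_dvd_left _ _
    obtain ⟨m, hm⟩ := h5
    have hg : 0 < (orderOf θ).gcd 2 := Nat.gcd_pos_of_pos_left _ hpos
    have h6 : orderOf θ / (orderOf θ).gcd 2 = m := Nat.div_eq_of_eq_mul_right hg hm
    rw [h6] at c3
    have hm0 : 0 < m := by rw [c3]; exact hpos
    have h7 : (orderOf θ).gcd 2 * m = 1 * m := by rw [← hm, one_mul, c3]
    exact Nat.eq_of_mul_eq_mul_right hm0 h7
  rw [Nat.odd_iff]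
  by_contra hcon
  have h8 : orderOf θ % 2 = 0 := by omega
  have h9 : 2 ∣ orderOf θ := Nat.dvd_of_mod_eq_zero h8
  have h10 : 2 ∣ (orderOf θ).gcd 2 := Nat.dvd_gcd h9 (dvd_refl 2)
  rw [h4] at h10
  omega

end Cfsg.Agent.Lib.Helper63.FFAdd
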