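import Mathlib
import Cfsg.Agent.Lib.Helper63.SuzCenter
import Cfsg.Agent.Lib.Helper63.SuzExt
import Cfsg.Agent.Lib.Helper63.SuzRho

/-!
From field coordinates on `P / V` and `V` to the type A description of the squaring map.
-/

set_option autoImplicit false

namespace Cfsg.Agent.Lib.Helper63.Suz

open scoped commutatorElement

variable {P : Type*} [Group P]

/-- field coordinates on `P/V` and on `V`, compatible with the action of `K` -/
structure Coord (K : Subgroup (MulAut P)) (F : Type*) [Field F] (α β : P → F) (p₀ : P) : Prop where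
  a1 : ∀ x y, α (x * y) = α x + α y
  a2 : Function.Surjective α
  a3 : ∀ g, α g = 0 ↔ g * g = 1
  a4 : ∀ k ∈ K, ∀ g, α (k g) = α (k p₀) * α g
  a5 : α p₀ = 1
  b1 : ∀ x y, x * x = 1 → y * y = 1 → β (x * y) = β x + β y
  b2 : ∀ x, x * x = 1 → β x = 0 → x = 1
  b3 : ∀ c, ∃ x, x * x = 1 ∧ β x = c
  b4 : ∀ k ∈ K, ∀ x, x * x = 1 → β (k x) = β (k (p₀ * p₀)) * β x
  b5 : β (p₀ * p₀) = 1
  tr : ∀ g, g * g ≠ 1 → ∃ k ∈ K, α g = α (k p₀)

theorem Coord.extData [Finite P] {K : Subgroup (MulAut P)} (h : Setup K)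
    (hna : ∃ x y : P, x * y ≠ y * x)
    {F : Type*} [Field F] [Fintype F] [CharP F 2] {α β : P → F} {p₀ : P} (c : Coord K F α β p₀) :
    ∃ (θ : F ≃+* F) (α' : P → F), θ ≠ RingEquiv.refl F ∧ Odd (orderOf θ) ∧
      ExtData P F (fun x => θ x * x) α' β := by
  have h2 : (2 : F) = 0 := CharTwo.two_eq_zero
  have hadd2 : ∀ a : F, a + a = 0 := CharTwo.add_self_eq_zero
  have hα1 : α 1 = 0 := (c.a3 1).2 (one_mul 1)
  have hβ1 : β 1 = 0 := by
    have := c.b1 1 1 (one_mul 1) (one_mul 1)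
    rw [mul_one] at this
    exact left_eq_add.mp this
  have hsqV : ∀ g : P, (g * g) * (g * g) = 1 := by
    intro g
    rw [← c.a3, c.a1, hadd2]
  have hcen : ∀ v : P, v * v = 1 → ∀ g, g * v = v * g := fun v hv => h.central hv
  have hβinj : ∀ x y : P, x * x = 1 → y * y = 1 → β x = β y → x = y := by
    intro x y hx hy hxy
    have h1 : β (x * y) = 0 := by rw [c.b1 x y hx hy, hxy, hadd2]
    have hxy2 : (x * y) * (x * y) = 1 := h.V.mul_mem (show x ∈ h.V from hx) (show y ∈ h.V from hy)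
    have h3 := c.b2 _ hxy2 h1
    have h4 : x = y⁻¹ := eq_inv_of_mul_eq_one_left h3
    rw [h4]
    exact inv_eq_of_mul_eq_one_left hy
  have hcls : Cls2 (⊤ : Subgroup P) h.V := by
    refine ⟨le_top, fun z hz x _ => (hcen z hz x).symm, ?_⟩
    intro g _ x _
    rw [comm_eq_squares]
    exact h.V.mul_mem (h.V.mul_mem (hsqV _) (hsqV _)) (hsqV _)
  have hcommV : ∀ g x : P, ⁅g, x⁆ * ⁅g, x⁆ = 1 := fun g x =>
    hcls.comm g (Subgroup.mem_top g) x (Subgroup.mem_top x)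
  -- the quadratic map
  choose gX hgX using c.a2
  let ρ : F → F := fun X => β (gX X * gX X)
  have hρ : ∀ g, β (g * g) = ρ (α g) := by
    intro g
    show β (g * g) = β (gX (α g) * gX (α g))
    set g' := gX (α g) with hg'
    have h1 : α g' = α g := hgX _
    have h3 : α (g⁻¹ * g') = 0 := by
      have h4 : α (g * (g⁻¹ * g')) = α g + α (g⁻¹ * g') := c.a1 _ _
      rw [mul_inv_cancel_left, h1] at h4
      exact left_eq_add.mp h4
    rw [c.a3] at h3
    have h5 : g' = g * (g⁻¹ * g') := by group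
    have h6 : g' * g' = g * g := by
      calc g' * g' = g * (g⁻¹ * g') * (g * (g⁻¹ * g')) := by rw [← h5]
        _ = g * ((g⁻¹ * g') * g) * (g⁻¹ * g') := by group
        _ = g * (g * (g⁻¹ * g')) * (g⁻¹ * g') := by rw [hcen _ h3 g]
        _ = g * g * ((g⁻¹ * g') * (g⁻¹ * g')) := by group
        _ = g * g := by rw [h3, mul_one]
    rw [h6]
  have hρ0 : ρ 0 = 0 := by
    have h1 := hρ 1
    rw [hα1, one_mul, hβ1] at h1
    exact h1.symm
  have L1 : ∀ x y : P, β ((x * y) * (x * y)) = β (x * x) + β (y * y) + β ⁅y, x⁆ := by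
    intro x y
    have h1 := hcls.mul_pow (Subgroup.mem_top x) (Subgroup.mem_top y) 2
    simp only [pow_two, Nat.choose_self, pow_one] at h1
    rw [h1, c.b1 _ _ (h.V.mul_mem (hsqV x) (hsqV y)) (hcommV y x), c.b1 _ _ (hsqV x) (hsqV y)]
  have L2 : ∀ z x y : P, β ⁅z, x * y⁆ = β ⁅z, x⁆ + β ⁅z, y⁆ := by
    intro z x y
    rw [hcls.bil_right (Subgroup.mem_top x) (Subgroup.mem_top y) (Subgroup.mem_top z),
      c.b1 _ _ (hcommV z x) (hcommV z y)]
  have hcube : ∀ X Y Z, ρ (X + Y + Z) + ρ (X + Y) + ρ (X + Z) + ρ (Y + Z) + ρ X + ρ Y + ρ Z = 0 := by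
    intro X Y Z
    obtain ⟨a, rfl⟩ := c.a2 X
    obtain ⟨b, rfl⟩ := c.a2 Y
    obtain ⟨d, rfl⟩ := c.a2 Z
    rw [← c.a1, ← c.a1, ← c.a1, ← c.a1]
    simp only [← hρ]
    rw [L1 (a * b) d, L1 a b, L1 a d, L1 b d, L2]
    linear_combination (2 * β (a * a) + 2 * β (b * b) + 2 * β (d * d) + β ⁅b, a⁆ + β ⁅d, a⁆ +
      β ⁅d, b⁆) * h2
  have hρk : ∀ k ∈ K, ρ (α (k p₀)) = β (k (p₀ * p₀)) := by
    intro k _
    rw [← hρ, map_mul]
  have hex : ∀ a : F, a ≠ 0 → ∃ k ∈ K, a = α (k p₀) := by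
    intro a ha
    obtain ⟨g, rfl⟩ := c.a2 a
    exact c.tr g (fun hg => ha ((c.a3 g).2 hg))
  have hmul : ∀ a X, ρ (a * X) = ρ a * ρ X := by
    intro a X
    by_cases ha : a = 0
    · rw [ha, zero_mul, hρ0, zero_mul]
    obtain ⟨k, hk, rfl⟩ := hex a ha
    obtain ⟨g, rfl⟩ := c.a2 X
    rw [← c.a4 k hk, ← hρ, ← map_mul, c.b4 k hk _ (hsqV g), hρk k hk, hρ]
  have hne : ∃ X Y, ρ (X + Y) ≠ ρ X + ρ Y := by
    obtain ⟨x, y, hxy⟩ := hna
    refine ⟨α x, α y, ?_⟩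
    rw [← c.a1, ← hρ, ← hρ, ← hρ, ← c.b1 _ _ (hsqV x) (hsqV y)]
    intro h1
    have h3 := hβinj _ _ (hsqV _) (h.V.mul_mem (hsqV x) (hsqV y)) h1
    apply hxy
    have h4 : x * (y * x) * y = x * (x * y) * y := by
      calc x * (y * x) * y = x * y * (x * y) := by group
        _ = x * x * (y * y) := h3
        _ = x * (x * y) * y := by group
    exact (mul_left_cancel (mul_right_cancel h4)).symm
  obtain ⟨σ, τ, hστ, hrep⟩ := FFAdd.rho_repr ρ hmul hcube hne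
  have hp₀ : p₀ * p₀ ≠ 1 := by
    intro h1
    have := c.b5
    rw [h1, hβ1] at this
    exact zero_ne_one this
  have hρ1 : ∀ Z, ρ Z = 1 → Z = 1 := by
    intro Z hZ
    have hZ0 : Z ≠ 0 := by
      rintro rfl
      rw [hρ0] at hZ
      exact zero_ne_one hZ
    obtain ⟨k, hk, rfl⟩ := hex Z hZ0
    rw [hρk k hk, ← c.b5] at hZ
    have h1 : k (p₀ * p₀) = p₀ * p₀ := by
      apply hβinj _ _ _ (hsqV p₀) hZ
      rw [← map_mul, hsqV, map_one]
    have h3 : k = 1 := h.fpf hk hp₀ h1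
    rw [h3, MulAut.one_apply, c.a5]
  refine ⟨τ * σ⁻¹, fun g => σ (α g), ?_, ?_, ?_⟩
  · intro h1
    apply hστ
    have h3 : τ * σ⁻¹ = 1 := h1
    exact (mul_inv_eq_one.1 h3).symm
  · apply FFAdd.odd_orderOf
    intro X _ hX
    have h1 : (τ * σ⁻¹) X = τ (σ⁻¹ X) := rfl
    have h3 : σ (σ⁻¹ X) = X := σ.apply_symm_apply X
    have h4 : ρ (σ⁻¹ X) = 1 := by
      rw [hrep, h3, ← h1, hX]
    have h5 := hρ1 _ h4
    rw [← h3, h5, map_one]
  · refine ⟨?_, ?_, ?_, ?_, ?_, ?_, ?_⟩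
    · intro x y
      show σ (α (x * y)) = σ (α x) + σ (α y)
      rw [c.a1, map_add]
    · exact σ.surjective.comp c.a2
    · intro z hz g
      have hz' : α z = 0 := (map_eq_zero_iff σ σ.injective).1 hz
      exact hcen z ((c.a3 z).1 hz') g
    · intro x y hx hy
      have hx' : α x = 0 := (map_eq_zero_iff σ σ.injective).1 hx
      have hy' : α y = 0 := (map_eq_zero_iff σ σ.injective).1 hy
      exact c.b1 x y ((c.a3 x).1 hx') ((c.a3 y).1 hy')
    · intro x hx hx2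
      have hx' : α x = 0 := (map_eq_zero_iff σ σ.injective).1 hx
      exact c.b2 x ((c.a3 x).1 hx') hx2
    · intro d
      obtain ⟨x, hx, hxd⟩ := c.b3 d
      refine ⟨x, ?_, hxd⟩
      show σ (α x) = 0
      rw [(c.a3 x).2 hx, map_zero]
    · intro g
      show β (g * g) = (τ * σ⁻¹) (σ (α g)) * σ (α g)
      have h1 : (τ * σ⁻¹) (σ (α g)) = τ (α g) := by
        show τ (σ⁻¹ (σ (α g))) = τ (α g)
        congr 1
        exact σ.symm_apply_apply _
      rw [h1, hρ, hrep, mul_comm]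

end Cfsg.Agent.Lib.Helper63.Suz
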