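import Mathlib

/-!
A finite elementary abelian 2-group with a commutative group acting regularly on its nonzero
elements carries a field structure for which the group acts by multiplications.
-/

set_option autoImplicit false

namespace Cfsg.Agent.Lib.Helper63.Suz

universe u v

section
variable {A : Type u} [AddCommGroup A] {K₀ : Type v} [CommGroup K₀]

/-- hypotheses on the action -/
structure RegAct (act : K₀ → A → A) : Prop where
  add : ∀ k x y, act k (x + y) = act k x + act k y
  mul : ∀ k l x, act (k * l) x = act k (act l x)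
  one : ∀ x, act 1 x = x
  two : ∀ a : A, a + a = 0
  ex : ∀ x y : A, x ≠ 0 → y ≠ 0 → ∃ k : K₀, act k x = y
  un : ∀ (k : K₀) (x : A), x ≠ 0 → act k x = x → k = 1

variable {act : K₀ → A → A}

/-- the endomorphism attached to `k` -/
def RegAct.toEnd (h : RegAct act) (k : K₀) : AddMonoid.End A := AddMonoidHom.mk' (act k) (h.add k)

theorem RegAct.toEnd_apply (h : RegAct act) (k : K₀) (x : A) : h.toEnd k x = act k x := rfl

theorem RegAct.toEnd_mul (h : RegAct act) (k l : K₀) : h.toEnd (k * l) = h.toEnd k * h.toEnd l := by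
  ext x; exact h.mul k l x

theorem RegAct.toEnd_one (h : RegAct act) : h.toEnd 1 = 1 := by
  ext x; exact h.one x

theorem RegAct.act_zero (h : RegAct act) (k : K₀) : act k 0 = 0 := (h.toEnd k).map_zero

theorem RegAct.act_ne_zero (h : RegAct act) (k : K₀) {x : A} (hx : x ≠ 0) : act k x ≠ 0 := by
  intro h0
  apply hx
  have := congrArg (act k⁻¹) h0
  rwa [← h.mul, inv_mul_cancel, h.one, h.act_zero] at this

theorem RegAct.inj (h : RegAct act) {k l : K₀} {x : A} (hx : x ≠ 0) (hkl : act k x = act l x) :
    k = l := by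
  have := congrArg (act l⁻¹) hkl
  rw [← h.mul, ← h.mul, inv_mul_cancel, h.one] at this
  have h1 := h.un _ x hx this
  rw [inv_mul_eq_one] at h1
  exact h1.symm

theorem RegAct.add_mem (h : RegAct act) {e : A} (he : e ≠ 0) (k l : K₀) :
    h.toEnd k + h.toEnd l = 0 ∨ ∃ m, h.toEnd k + h.toEnd l = h.toEnd m := by
  by_cases hkl : act k e + act l e = 0
  · left
    have h1 : act k e = act l e := by
      have := h.two (act l e)
      have h2 : act k e + act l e = act l e + act l e := by rw [hkl, this]
      exact add_right_cancel h2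
    have h2 := h.inj he h1
    subst h2
    ext x
    exact h.two _
  · right
    obtain ⟨m, hm⟩ := h.ex e _ he hkl
    refine ⟨m, ?_⟩
    ext x
    show act k x + act l x = act m x
    by_cases hx : x = 0
    · subst hx; simp [h.act_zero]
    obtain ⟨n, rfl⟩ := h.ex e x he hx
    rw [← h.mul, ← h.mul, ← h.mul, mul_comm k, mul_comm l, mul_comm m, h.mul, h.mul, h.mul, hm, h.add]

/-- the subring `{0} ∪ K₀` of the endomorphism ring -/
def RegAct.ring (h : RegAct act) {e : A} (he : e ≠ 0) : Subring (AddMonoid.End A) where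
  carrier := {f | f = 0 ∨ ∃ k, f = h.toEnd k}
  zero_mem' := Or.inl rfl
  one_mem' := Or.inr ⟨1, h.toEnd_one.symm⟩
  mul_mem' := by
    rintro a b (rfl | ⟨k, rfl⟩) (rfl | ⟨l, rfl⟩)
    · left; simp
    · left; simp
    · left; simp
    · right; exact ⟨k * l, (h.toEnd_mul k l).symm⟩
  add_mem' := by
    rintro a b (rfl | ⟨k, rfl⟩) (rfl | ⟨l, rfl⟩)
    · left; simp
    · right; exact ⟨l, by simp⟩
    · right; exact ⟨k, by simp⟩
    · exact h.add_mem he k l
  neg_mem' := by
    intro a ha
    have : -a = a := by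
      rw [neg_eq_iff_add_eq_zero]
      ext x
      exact h.two _
    rw [this]; exact ha

theorem RegAct.isField (h : RegAct act) {e : A} (he : e ≠ 0) : IsField (h.ring he) where
  exists_pair_ne := by
    refine ⟨0, 1, ?_⟩
    intro h01
    have h1 : ((0 : h.ring he) : AddMonoid.End A) e = ((1 : h.ring he) : AddMonoid.End A) e := by
      rw [h01]
    exact he h1.symm
  mul_comm := by
    rintro ⟨a, (rfl | ⟨k, rfl⟩)⟩ ⟨b, (rfl | ⟨l, rfl⟩)⟩
    · rfl
    · apply Subtype.ext; simp
    · apply Subtype.ext; simp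
    · apply Subtype.ext
      show h.toEnd k * h.toEnd l = h.toEnd l * h.toEnd k
      rw [← h.toEnd_mul, ← h.toEnd_mul, mul_comm]
  mul_inv_cancel := by
    rintro ⟨a, (rfl | ⟨k, rfl⟩)⟩ ha
    · exact absurd rfl ha
    · refine ⟨⟨h.toEnd k⁻¹, Or.inr ⟨_, rfl⟩⟩, ?_⟩
      apply Subtype.ext
      show h.toEnd k * h.toEnd k⁻¹ = 1
      rw [← h.toEnd_mul, mul_inv_cancel, h.toEnd_one]

/-- **The field structure.** -/
theorem RegAct.exists_field [Finite A] (h : RegAct act) {e : A} (he : e ≠ 0) :
    ∃ (R : Type u) (_ : Field R) (_ : Finite R) (a : A ≃+ R), a e = 1 ∧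
      ∀ (k : K₀) (x : A), a (act k x) = a (act k e) * a x := by
  letI : Field (h.ring he) := (h.isField he).toField
  let ev : h.ring he →+ A :=
    { toFun := fun f => (f : AddMonoid.End A) e
      map_zero' := rfl
      map_add' := fun _ _ => rfl }
  have hinj : Function.Injective ev := by
    rw [injective_iff_map_eq_zero]
    rintro ⟨a, (rfl | ⟨k, rfl⟩)⟩ ha
    · rfl
    · exact absurd ha (h.act_ne_zero k he)
  have hsurj : Function.Surjective ev := by
    intro x
    by_cases hx : x = 0
    · exact ⟨0, hx.symm⟩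
    · obtain ⟨k, hk⟩ := h.ex e x he hx
      exact ⟨⟨h.toEnd k, Or.inr ⟨k, rfl⟩⟩, hk⟩
  let a : h.ring he ≃+ A := AddEquiv.ofBijective ev ⟨hinj, hsurj⟩
  haveI : Finite (h.ring he) := Finite.of_injective ev hinj
  refine ⟨h.ring he, inferInstance, inferInstance, a.symm, ?_, ?_⟩
  · rw [AddEquiv.symm_apply_eq]; rfl
  · intro k x
    rw [AddEquiv.symm_apply_eq]
    have h1 : a.symm (act k e) = ⟨h.toEnd k, Or.inr ⟨k, rfl⟩⟩ := by
      rw [AddEquiv.symm_apply_eq]; rfl
    rw [h1]
    show act k x = act k (((a.symm x : h.ring he) : AddMonoid.End A) e)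
    have h2 : ((a.symm x : h.ring he) : AddMonoid.End A) e = x := a.apply_symm_apply x
    rw [h2]

end


/-- multiplicative version, with values in a prescribed finite field of the right order -/
theorem exists_coord {Q : Type u} [Group Q] [Finite Q] {K₀ : Type v} [CommGroup K₀]
    (act : K₀ → Q → Q)
    (hmul : ∀ k x y, act k (x * y) = act k x * act k y)
    (hact : ∀ k l x, act (k * l) x = act k (act l x))
    (hone : ∀ x, act 1 x = x)
    (htwo : ∀ a : Q, a * a = 1)
    (hex : ∀ x y : Q, x ≠ 1 → y ≠ 1 → ∃ k : K₀, act k x = y)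
    (hun : ∀ (k : K₀) (x : Q), x ≠ 1 → act k x = x → k = 1)
    {e : Q} (he : e ≠ 1)
    (F : Type*) [Field F] [Fintype F] (hF : Fintype.card F = Nat.card Q) :
    ∃ a : Q → F, Function.Bijective a ∧ (∀ x y, a (x * y) = a x + a y) ∧ a e = 1 ∧
      ∀ (k : K₀) (x : Q), a (act k x) = a (act k e) * a x := by
  letI : CommGroup Q :=
    { (inferInstance : Group Q) with
      mul_comm := by
        intro a b
        have h1 := htwo (a * b)
        have ha : a⁻¹ = a := inv_eq_of_mul_eq_one_left (htwo a)
        have hb : b⁻¹ = b := inv_eq_of_mul_eq_one_left (htwo b)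
        have h2 : a * b = (a * b)⁻¹ := (inv_eq_of_mul_eq_one_left h1).symm
        rw [h2, mul_inv_rev, ha, hb] }
  let act' : K₀ → Additive Q → Additive Q := fun k x => Additive.ofMul (act k x.toMul)
  have hreg : RegAct act' :=
    { add := fun k x y => hmul k x.toMul y.toMul
      mul := fun k l x => hact k l x.toMul
      one := fun x => hone x.toMul
      two := fun a => htwo a.toMul
      ex := fun x y hx hy => hex x.toMul y.toMul hx hy
      un := fun k x hx hk => hun k x.toMul hx hk }
  obtain ⟨R, hR1, hR2, a, hae, hak⟩ := hreg.exists_field (e := Additive.ofMul e) he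
  letI := Fintype.ofFinite R
  have hcard : Fintype.card R = Fintype.card F := by
    rw [hF, ← Nat.card_eq_fintype_card, ← Nat.card_congr a.toEquiv]
    rfl
  let j : R ≃+* F := FiniteField.ringEquivOfCardEq hcard
  refine ⟨fun x => j (a (Additive.ofMul x)), ?_, ?_, ?_, ?_⟩
  · exact j.bijective.comp (a.bijective.comp Additive.ofMul.bijective)
  · intro x y
    show j (a (Additive.ofMul x + Additive.ofMul y)) = _
    rw [map_add, map_add]
  · show j (a (Additive.ofMul e)) = 1
    rw [hae, map_one]
  · intro k x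
    show j (a (act' k (Additive.ofMul x))) = j (a (act' k (Additive.ofMul e))) * j (a (Additive.ofMul x))
    rw [hak, map_mul]

end Cfsg.Agent.Lib.Helper63.Suz
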