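import Mathlib
import Cfsg.Prelude.Def_LieRecognition
import Cfsg.Agent.Lib.Helper63.SuzExt

/-!
The matrix group `suzukiTypeA F φ` in coordinates.
-/

set_option autoImplicit false

namespace Cfsg.Agent.Lib.Helper63.Suz

open Matrix

variable {F : Type*} [Field F] (φ : F →+* F)

theorem mA_det (x y : F) : (!![1, 0, 0; x, 1, 0; y, φ x, 1] : Matrix (Fin 3) (Fin 3) F).det ≠ 0 := by
  rw [Matrix.det_fin_three]
  simp

/-- the matrix with rows `(1,0,0)`, `(x,1,0)`, `(y, φ x, 1)` -/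
noncomputable def mA (x y : F) : GL (Fin 3) F :=
  Matrix.GeneralLinearGroup.mkOfDetNeZero !![1, 0, 0; x, 1, 0; y, φ x, 1] (mA_det φ x y)

theorem mA_val (x y : F) :
    ((mA φ x y : GL (Fin 3) F) : Matrix (Fin 3) (Fin 3) F) = !![1, 0, 0; x, 1, 0; y, φ x, 1] := rfl

theorem mA_mul (x y x' y' : F) : mA φ x y * mA φ x' y' = mA φ (x + x') (y + y' + φ x * x') := by
  apply Units.ext
  rw [Units.val_mul, mA_val, mA_val, mA_val]
  ext i j
  fin_cases i <;> fin_cases j <;> simp [Matrix.mul_apply, Fin.sum_univ_three] <;> ring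

theorem mA_zero : mA φ 0 0 = 1 := by
  apply Units.ext
  rw [mA_val]
  ext i j
  fin_cases i <;> fin_cases j <;> simp

theorem mA_inj {x y x' y' : F} (h : mA φ x y = mA φ x' y') : x = x' ∧ y = y' := by
  have h1 := congrArg (fun g : GL (Fin 3) F => (g : Matrix (Fin 3) (Fin 3) F)) h
  simp only [mA_val] at h1
  have h2 := congrFun (congrFun h1 1) 0
  have h3 := congrFun (congrFun h1 2) 0
  simp at h2 h3
  exact ⟨h2, h3⟩

theorem mA_mem (x y : F) : mA φ x y ∈ Cfsg.suzukiTypeA F φ :=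
  Subgroup.subset_closure ⟨x, y, rfl⟩

theorem exists_mA (h2 : ∀ a : F, a + a = 0) {g : GL (Fin 3) F} (hg : g ∈ Cfsg.suzukiTypeA F φ) :
    ∃ x y, g = mA φ x y := by
  induction hg using Subgroup.closure_induction with
  | mem g hg =>
    obtain ⟨x, y, h⟩ := hg
    exact ⟨x, y, Units.ext h⟩
  | one => exact ⟨0, 0, (mA_zero φ).symm⟩
  | mul a b _ _ ha hb =>
    obtain ⟨x, y, rfl⟩ := ha
    obtain ⟨x', y', rfl⟩ := hb
    exact ⟨_, _, mA_mul φ x y x' y'⟩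
  | inv a _ ha =>
    obtain ⟨x, y, rfl⟩ := ha
    refine ⟨x, y + φ x * x, ?_⟩
    rw [inv_eq_iff_mul_eq_one, mA_mul, h2]
    have : y + (y + φ x * x) + φ x * x = (y + y) + (φ x * x + φ x * x) := by ring
    rw [this, h2, h2, add_zero, mA_zero]

theorem extData_mA (h2 : ∀ a : F, a + a = 0) :
    ExtData (Cfsg.suzukiTypeA F φ) F (fun x => φ x * x)
      (fun g => ((g : GL (Fin 3) F) : Matrix (Fin 3) (Fin 3) F) 1 0)
      (fun g => ((g : GL (Fin 3) F) : Matrix (Fin 3) (Fin 3) F) 2 0) := by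
  have hα : ∀ x y, ((mA φ x y : GL (Fin 3) F) : Matrix (Fin 3) (Fin 3) F) 1 0 = x := by
    intro x y; rw [mA_val]; simp
  have hβ : ∀ x y, ((mA φ x y : GL (Fin 3) F) : Matrix (Fin 3) (Fin 3) F) 2 0 = y := by
    intro x y; rw [mA_val]; simp
  refine ⟨?_, ?_, ?_, ?_, ?_, ?_, ?_⟩
  · rintro ⟨a, ha⟩ ⟨b, hb⟩
    obtain ⟨x, y, rfl⟩ := exists_mA φ h2 ha
    obtain ⟨x', y', rfl⟩ := exists_mA φ h2 hb
    show ((mA φ x y * mA φ x' y' : GL (Fin 3) F) : Matrix (Fin 3) (Fin 3) F) 1 0 = _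
    rw [mA_mul, hα]
    show _ = ((mA φ x y : GL (Fin 3) F) : Matrix (Fin 3) (Fin 3) F) 1 0 +
      ((mA φ x' y' : GL (Fin 3) F) : Matrix (Fin 3) (Fin 3) F) 1 0
    rw [hα, hα]
  · intro x
    exact ⟨⟨mA φ x 0, mA_mem φ x 0⟩, hα x 0⟩
  · rintro ⟨a, ha⟩ h0 ⟨b, hb⟩
    obtain ⟨x, y, rfl⟩ := exists_mA φ h2 ha
    obtain ⟨x', y', rfl⟩ := exists_mA φ h2 hb
    have h0' : x = 0 := by rw [← hα x y]; exact h0
    subst h0'
    apply Subtype.ext
    show mA φ x' y' * mA φ 0 y = mA φ 0 y * mA φ x' y'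
    rw [mA_mul, mA_mul]
    congr 1
    · ring
    · rw [map_zero]; ring
  · rintro ⟨a, ha⟩ ⟨b, hb⟩ h0 h0'
    obtain ⟨x, y, rfl⟩ := exists_mA φ h2 ha
    obtain ⟨x', y', rfl⟩ := exists_mA φ h2 hb
    have h1 : x = 0 := by rw [← hα x y]; exact h0
    subst h1
    show ((mA φ 0 y * mA φ x' y' : GL (Fin 3) F) : Matrix (Fin 3) (Fin 3) F) 2 0 =
      ((mA φ 0 y : GL (Fin 3) F) : Matrix (Fin 3) (Fin 3) F) 2 0 +
      ((mA φ x' y' : GL (Fin 3) F) : Matrix (Fin 3) (Fin 3) F) 2 0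
    rw [mA_mul, hβ, hβ, hβ, map_zero]; ring
  · rintro ⟨a, ha⟩ h0 h0'
    obtain ⟨x, y, rfl⟩ := exists_mA φ h2 ha
    have h1 : x = 0 := by rw [← hα x y]; exact h0
    have h3 : y = 0 := by rw [← hβ x y]; exact h0'
    subst h1 h3
    exact Subtype.ext (mA_zero φ)
  · intro c
    exact ⟨⟨mA φ 0 c, mA_mem φ 0 c⟩, hα 0 c, hβ 0 c⟩
  · rintro ⟨a, ha⟩
    obtain ⟨x, y, rfl⟩ := exists_mA φ h2 ha
    show ((mA φ x y * mA φ x y : GL (Fin 3) F) : Matrix (Fin 3) (Fin 3) F) 2 0 =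
      φ (((mA φ x y : GL (Fin 3) F) : Matrix (Fin 3) (Fin 3) F) 1 0) *
        ((mA φ x y : GL (Fin 3) F) : Matrix (Fin 3) (Fin 3) F) 1 0
    rw [mA_mul, hβ, hα, h2, zero_add]

end Cfsg.Agent.Lib.Helper63.Suz
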