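import Mathlib
import Cfsg.Agent.Lib.Helper63.SuzField
import Cfsg.Agent.Lib.Helper63.SuzCoord

/-!
Suzuki 2-groups of order `q ^ 2`: the group `K` is regular on `P / V`, field coordinates.
-/

set_option autoImplicit false

namespace Cfsg.Agent.Lib.Helper63.Suz

/-- an action by automorphisms which is free on the nonidentity elements -/
structure GAct {K₀ Q : Type*} [Group K₀] [Group Q] (act : K₀ → Q → Q) : Prop where
  mul : ∀ k x y, act k (x * y) = act k x * act k y
  comp : ∀ k l x, act (k * l) x = act k (act l x)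
  one : ∀ x, act 1 x = x
  free : ∀ k x, x ≠ 1 → act k x = x → k = 1

section
variable {K₀ Q : Type*} [Group K₀] [Group Q] {act : K₀ → Q → Q}

theorem GAct.map_one (h : GAct act) (k : K₀) : act k 1 = 1 := by
  have := h.mul k 1 1
  rw [mul_one] at this
  exact left_eq_mul.mp this

theorem GAct.inj (h : GAct act) (k : K₀) : Function.Injective (act k) := by
  intro x y hxy
  have := congrArg (act k⁻¹) hxy
  rwa [← h.comp, ← h.comp, inv_mul_cancel, h.one, h.one] at this

theorem GAct.optInj (h : GAct act) {x : Q} (hx : x ≠ 1) :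
    Function.Injective (fun o : Option K₀ => o.elim 1 (fun k => act k x)) := by
  intro a b hab
  cases a with
  | none =>
    cases b with
    | none => rfl
    | some l =>
      exfalso
      have h1 : (1 : Q) = act l x := hab
      rw [← h.map_one l] at h1
      exact hx (h.inj l h1).symm
  | some k =>
    cases b with
    | none =>
      exfalso
      have h1 : act k x = 1 := hab
      rw [← h.map_one k] at h1
      exact hx (h.inj k h1)
    | some l =>
      have h1 : act k x = act l x := hab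
      have h2 : act (l⁻¹ * k) x = x := by
        rw [h.comp, h1, ← h.comp, inv_mul_cancel, h.one]
      have h3 := h.free _ x hx h2
      rw [inv_mul_eq_one] at h3
      rw [h3]

theorem GAct.card_eq [Finite Q] (h : GAct act)
    (htr : ∀ x y : Q, x ≠ 1 → y ≠ 1 → ∃ k, act k x = y) {x : Q} (hx : x ≠ 1) :
    Nat.card Q = Nat.card K₀ + 1 := by
  have hinj := h.optInj hx
  haveI : Finite (Option K₀) := Finite.of_injective _ hinj
  haveI : Finite K₀ := Finite.of_injective _ (Option.some_injective K₀)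
  have hsurj : Function.Surjective (fun o : Option K₀ => o.elim 1 (fun k => act k x)) := by
    intro y
    by_cases hy : y = 1
    · exact ⟨none, hy.symm⟩
    · obtain ⟨k, hk⟩ := htr x y hx hy
      exact ⟨some k, hk⟩
  rw [← Finite.card_option, Nat.card_congr (Equiv.ofBijective _ ⟨hinj, hsurj⟩)]

theorem GAct.trans_of_card [Finite Q] (h : GAct act) (hc : Nat.card Q = Nat.card K₀ + 1) :
    ∀ x y : Q, x ≠ 1 → y ≠ 1 → ∃ k, act k x = y := by
  intro x y hx hy
  have hinj := h.optInj hx
  haveI : Finite (Option K₀) := Finite.of_injective _ hinj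
  haveI : Finite K₀ := Finite.of_injective _ (Option.some_injective K₀)
  have hbij := hinj.bijective_of_nat_card_le (by rw [Finite.card_option, hc])
  obtain ⟨o, ho⟩ := hbij.2 y
  cases o with
  | none => exact absurd ho.symm hy
  | some k => exact ⟨k, ho⟩

theorem GAct.sq (h : GAct act) (h2 : IsPGroup 2 Q)
    (htr : ∀ x y : Q, x ≠ 1 → y ≠ 1 → ∃ k, act k x = y) (a : Q) : a * a = 1 := by
  by_cases ha : a = 1
  · rw [ha, one_mul]
  obtain ⟨j, hj1, hj2⟩ := exists_pow_invol h2 ha
  obtain ⟨k, hk⟩ := htr _ a hj1 ha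
  rw [← hk, ← h.mul, hj2, h.map_one]

end

variable {P : Type*} [Group P]

theorem Setup.fpf_quot [Finite P] {K : Subgroup (MulAut P)} (h : Setup K) {k : MulAut P}
    (hk : k ∈ K) (hk1 : k ≠ 1) {g : P} (hg : g⁻¹ * k g ∈ h.V) : g ∈ h.V := by
  by_cases hg1 : g = 1
  · rw [hg1]; exact h.V.one_mem
  obtain ⟨j, hj1, hj2⟩ := exists_pow_invol h.two hg1
  obtain ⟨m', hm', hm'v⟩ := h.regV.add_closure (e := g ^ 2 ^ j) hj2 hj1 hk hk1
  set v := g⁻¹ * k g with hv
  have hw : m'⁻¹ v ∈ h.V := h.regV.inv _ (K.inv_mem hm') v hg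
  set w := m'⁻¹ v with hwdef
  have h1 : v = w * k w := by
    rw [← hm'v w hw, hwdef, MulAut.apply_inv_self]
  have hkw : k w * k w = 1 := h.regV.inv k hk w hw
  have h2 : k (g * w) = g * w := by
    have h3 : k g = g * v := by rw [hv]; group
    rw [map_mul, h3, h1]
    calc g * (w * k w) * k w = g * w * (k w * k w) := by group
      _ = g * w := by rw [hkw, mul_one]
  by_contra hcon
  have h4 : g * w ≠ 1 := by
    intro h5
    apply hcon
    rw [eq_inv_of_mul_eq_one_left h5]
    exact h.V.inv_mem hw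
  exact hk1 (h.fpf hk h4 h2)

theorem Setup.exists_coord' [Finite P] {K : Subgroup (MulAut P)} (h : Setup K)
    (hna : ∃ x y : P, x * y ≠ y * x) (hcard : Nat.card P = Nat.card h.V ^ 2)
    (F : Type*) [Field F] [Fintype F] (hF : Fintype.card F = Nat.card h.V) :
    ∃ (α β : P → F) (p₀ : P), Coord K F α β p₀ := by
  classical
  haveI hVn : h.V.Normal := by
    constructor
    intro v hv g
    rw [h.central hv g, mul_inv_cancel_right]
    exact hv
  letI : CommGroup K :=
    { (inferInstance : Group K) with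
      mul_comm := fun a b => Subtype.ext (h.comm a a.2 b b.2) }
  obtain ⟨p₀, y₀, hp₀y⟩ := hna
  have hp₀ : p₀ * p₀ ≠ 1 := fun h1 => hp₀y (h.central h1 y₀).symm
  -- action on `V`
  let actV : K → h.V → h.V := fun k v => ⟨(k : MulAut P) v, h.regV.inv k k.2 v v.2⟩
  have gV : GAct actV := by
    refine ⟨?_, ?_, ?_, ?_⟩
    · intro k x y
      apply Subtype.ext
      show (k : MulAut P) (x * y) = (k : MulAut P) x * (k : MulAut P) y
      rw [map_mul]
    · intro k l x
      rfl
    · intro x
      rfl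
    · intro k x hx hkx
      apply Subtype.ext
      apply h.regV.un k k.2 x x.2 (fun h1 => hx (Subtype.ext h1))
      exact congrArg Subtype.val hkx
  have trV : ∀ x y : h.V, x ≠ 1 → y ≠ 1 → ∃ k, actV k x = y := by
    intro x y hx hy
    obtain ⟨k, hk, hkx⟩ := h.regV.tr x x.2 y y.2 (fun h1 => hx (Subtype.ext h1))
      (fun h1 => hy (Subtype.ext h1))
    exact ⟨⟨k, hk⟩, Subtype.ext hkx⟩
  have sqV : ∀ a : h.V, a * a = 1 := fun a => Subtype.ext a.2
  -- action on the quotient
  have hle : ∀ k : K, h.V ≤ h.V.comap (k : MulAut P).toMonoidHom := fun k v hv =>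
    h.regV.inv k k.2 v hv
  let actW : K → P ⧸ h.V → P ⧸ h.V := fun k =>
    QuotientGroup.map h.V h.V (k : MulAut P).toMonoidHom (hle k)
  have hmk : ∀ (k : K) (g : P), actW k (QuotientGroup.mk g) = QuotientGroup.mk ((k : MulAut P) g) :=
    fun _ _ => rfl
  have gW : GAct actW := by
    refine ⟨?_, ?_, ?_, ?_⟩
    · intro k x y
      exact map_mul _ x y
    · intro k l x
      induction x using QuotientGroup.induction_on with
      | H g => rfl
    · intro x
      induction x using QuotientGroup.induction_on with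
      | H g => rfl
    · intro k x hx hkx
      induction x using QuotientGroup.induction_on with
      | H g =>
        by_contra hk1
        apply hx
        rw [hmk] at hkx
        have h1 : g⁻¹ * (k : MulAut P) g ∈ h.V := QuotientGroup.eq.1 hkx.symm
        have h2 := h.fpf_quot k.2 (fun h3 => hk1 (Subtype.ext h3)) h1
        exact (QuotientGroup.eq_one_iff g).2 h2
  have hsqne : (⟨(p₀ * p₀) ^ 2 ^ (Classical.choose (exists_pow_invol h.two hp₀)),
      (Classical.choose_spec (exists_pow_invol h.two hp₀)).2⟩ : h.V) ≠ 1 := by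
    intro h1
    exact (Classical.choose_spec (exists_pow_invol h.two hp₀)).1 (congrArg Subtype.val h1)
  have cardV : Nat.card h.V = Nat.card K + 1 := gV.card_eq trV hsqne
  have cardW : Nat.card (P ⧸ h.V) = Nat.card h.V := by
    have h1 := Subgroup.card_eq_card_quotient_mul_card_subgroup h.V
    rw [hcard, pow_two] at h1
    exact (Nat.eq_of_mul_eq_mul_right Nat.card_pos h1).symm
  have trW := gW.trans_of_card (cardW.trans cardV)
  have sqW := gW.sq (h.two.to_quotient h.V) trW
  have hw₀ : (QuotientGroup.mk p₀ : P ⧸ h.V) ≠ 1 := by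
    intro h1
    exact hp₀ ((QuotientGroup.eq_one_iff p₀).1 h1)
  have hsq₀ : p₀ * p₀ ∈ h.V := by
    rw [← QuotientGroup.eq_one_iff]
    exact sqW (QuotientGroup.mk p₀)
  have he₀ : (⟨p₀ * p₀, hsq₀⟩ : h.V) ≠ 1 := fun h1 => hp₀ (congrArg Subtype.val h1)
  obtain ⟨aW, aWbij, aWadd, aW1, aWk⟩ := exists_coord actW gW.mul gW.comp gW.one sqW trW gW.free hw₀ F
    (hF.trans cardW.symm)
  obtain ⟨aV, aVbij, aVadd, aV1, aVk⟩ := exists_coord actV gV.mul gV.comp gV.one sqV trV gV.free he₀ F
    hF
  have aW0 : aW 1 = 0 := by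
    have := aWadd 1 1
    rw [mul_one] at this
    exact left_eq_add.mp this
  have aV0 : aV 1 = 0 := by
    have := aVadd 1 1
    rw [mul_one] at this
    exact left_eq_add.mp this
  let β : P → F := fun g => if hg : g * g = 1 then aV ⟨g, hg⟩ else 0
  have hβ : ∀ (g : P) (hg : g * g = 1), β g = aV ⟨g, hg⟩ := fun g hg => dif_pos hg
  refine ⟨fun g => aW (QuotientGroup.mk g), β, p₀, ?_⟩
  refine ⟨?_, ?_, ?_, ?_, aW1, ?_, ?_, ?_, ?_, ?_, ?_⟩
  · intro x y
    exact aWadd (QuotientGroup.mk x) (QuotientGroup.mk y)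
  · exact aWbij.2.comp (QuotientGroup.mk_surjective)
  · intro g
    show aW (QuotientGroup.mk g) = 0 ↔ g * g = 1
    rw [← aW0, aWbij.1.eq_iff, QuotientGroup.eq_one_iff]
    rfl
  · intro k hk g
    exact aWk ⟨k, hk⟩ (QuotientGroup.mk g)
  · intro x y hx hy
    have hxy : (x * y) * (x * y) = 1 := h.V.mul_mem (show x ∈ h.V from hx) (show y ∈ h.V from hy)
    rw [hβ _ hx, hβ _ hy, hβ _ hxy]
    exact aVadd ⟨x, hx⟩ ⟨y, hy⟩
  · intro x hx hx0
    rw [hβ _ hx, ← aV0] at hx0
    exact congrArg Subtype.val (aVbij.1 hx0)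
  · intro c
    obtain ⟨x, hx⟩ := aVbij.2 c
    exact ⟨x, x.2, by rw [hβ _ x.2]; exact hx⟩
  · intro k hk x hx
    have h1 : k x * k x = 1 := h.regV.inv k hk x hx
    have h2 : k (p₀ * p₀) * k (p₀ * p₀) = 1 := h.regV.inv k hk _ hsq₀
    rw [hβ _ h1, hβ _ h2, hβ _ hx]
    exact aVk ⟨k, hk⟩ ⟨x, hx⟩
  · rw [hβ _ hsq₀]
    exact aV1
  · intro g hg
    have hg1 : (QuotientGroup.mk g : P ⧸ h.V) ≠ 1 := by
      intro h1
      exact hg ((QuotientGroup.eq_one_iff g).1 h1)
    obtain ⟨k, hk⟩ := trW _ _ hw₀ hg1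
    refine ⟨k, k.2, ?_⟩
    show aW (QuotientGroup.mk g) = aW (QuotientGroup.mk ((k : MulAut P) p₀))
    rw [← hk, hmk]

end Cfsg.Agent.Lib.Helper63.Suz
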